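import Mathlib

/-! Elementary facts on `3 × 3` matrices. -/

set_option autoImplicit false

namespace Cfsg.Agent.MiB

open Matrix

variable {F : Type*} [Field F]

/-- three by three matrices -/
abbrev M3 (F : Type*) := Matrix (Fin 3) (Fin 3) F

theorem ch3 (M : M3 F) :
    M * M * M = M.trace • (M * M) - M.adjugate.trace • M + M.det • (1 : M3 F) := by
  ext i j
  fin_cases i <;> fin_cases j <;>
    simp [mul_apply, Fin.sum_univ_three, det_fin_three, adjugate_fin_three, trace_fin_three] <;> ring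

theorem adj3 (M : M3 F) :
    M.adjugate = M * M - M.trace • M + M.adjugate.trace • (1 : M3 F) := by
  ext i j
  fin_cases i <;> fin_cases j <;>
    simp [mul_apply, Fin.sum_univ_three, adjugate_fin_three, trace_fin_three] <;> ring

theorem tr_sq (M : M3 F) : (M * M).trace = M.trace ^ 2 - 2 * M.adjugate.trace := by
  simp [mul_apply, Fin.sum_univ_three, adjugate_fin_three, trace_fin_three]; ring

theorem adj_eq_of_mul {M N : M3 F} (h : M * N = 1) (hd : M.det = 1) : M.adjugate = N := by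
  calc M.adjugate = M.adjugate * (M * N) := by rw [h, mul_one]
    _ = N := by rw [← mul_assoc, adjugate_mul, hd, one_smul, one_mul]

theorem tr_invol {t : M3 F} (h : t * t = 1) (hd : t.det = 1) (h1 : t ≠ 1) : t.trace = -1 := by
  have := ch3 t
  rw [adj_eq_of_mul h hd, h, hd, one_mul] at this
  by_contra hs
  have h0 : t.trace + 1 ≠ 0 := fun c => hs (eq_neg_of_add_eq_zero_left c)
  refine h1 (sub_eq_zero.1 ((smul_eq_zero.1 (?_ : (t.trace + 1) • (t - 1) = 0)).resolve_left h0))
  rw [add_smul, smul_sub, one_smul]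
  rw [one_smul] at this
  linear_combination (norm := module) this

theorem rank_one_of_adj {E : M3 F} (h : E.adjugate = 0) (X : M3 F) :
    E * X * E = (E * X).trace • E := by
  have a := fun i j => congrFun (congrFun h i) j
  have a00 := a 0 0; have a01 := a 0 1; have a02 := a 0 2
  have a10 := a 1 0; have a11 := a 1 1; have a12 := a 1 2
  have a20 := a 2 0; have a21 := a 2 1; have a22 := a 2 2
  simp [adjugate_fin_three] at a00 a01 a02 a10 a11 a12 a20 a21 a22
  ext i j
  fin_cases i <;> fin_cases j <;>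
    simp [mul_apply, Fin.sum_univ_three, trace_fin_three]
  · linear_combination - X 1 1 * a22 + X 1 2 * a21 + X 2 1 * a12 - X 2 2 * a11
  · linear_combination X 0 1 * a22 - X 0 2 * a21 - X 2 1 * a02 + X 2 2 * a01
  · linear_combination - X 0 1 * a12 + X 0 2 * a11 + X 1 1 * a02 - X 1 2 * a01
  · linear_combination X 1 0 * a22 - X 2 0 * a12 - X 1 2 * a20 + X 2 2 * a10
  · linear_combination - X 0 0 * a22 + X 0 2 * a20 + X 2 0 * a02 - X 2 2 * a00
  · linear_combination X 0 0 * a12 - X 1 0 * a02 - X 0 2 * a10 + X 1 2 * a00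
  · linear_combination - X 1 0 * a21 + X 2 0 * a11 + X 1 1 * a20 - X 2 1 * a10
  · linear_combination X 0 0 * a21 - X 2 0 * a01 - X 0 1 * a20 + X 2 1 * a00
  · linear_combination - X 0 0 * a11 + X 0 1 * a10 + X 1 0 * a01 - X 1 1 * a00

theorem rank_one (h2 : (2 : F) ≠ 0) {E : M3 F} (h : E * E = E) (ht : E.trace = 1) (X : M3 F) :
    E * X * E = (E * X).trace • E := by
  refine rank_one_of_adj ?_ X
  have h1 := tr_sq E
  rw [h, ht] at h1
  have h3 : E.adjugate.trace = 0 := by
    refine (mul_eq_zero.1 (?_ : 2 * E.adjugate.trace = 0)).resolve_left h2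
    linear_combination h1
  rw [adj3, h, ht, h3]; simp

theorem idem_zero (h2 : (2 : F) ≠ 0) {D E : M3 F} (h : D * D = D) (ht : D.trace = 0)
    (hE : D * E = 0) (h0 : E ≠ 0) : D = 0 := by
  have h1 := tr_sq D
  rw [h, ht] at h1
  have h3 : D.adjugate.trace = 0 := by
    refine (mul_eq_zero.1 (?_ : 2 * D.adjugate.trace = 0)).resolve_left h2
    linear_combination h1
  have h4 := ch3 D
  rw [h, h, ht, h3, zero_smul, sub_zero, zero_add] at h4
  rw [h4, smul_mul_assoc, one_mul, smul_eq_zero] at hE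
  rw [h4, hE.resolve_right h0, zero_smul]

/-- the projection on the fixed line of an involution -/
def ev (t : M3 F) : M3 F := (2 : F)⁻¹ • (1 + t)

theorem two_ev (h2 : (2 : F) ≠ 0) (t : M3 F) : t = (2 : F) • ev t - 1 := by
  rw [ev, smul_smul, mul_inv_cancel₀ h2, one_smul]; abel

theorem ev_idem (h2 : (2 : F) ≠ 0) {t : M3 F} (h : t * t = 1) : ev t * ev t = ev t := by
  simp only [ev, smul_mul_assoc, mul_smul_comm, mul_add, add_mul, h, one_mul, mul_one, smul_smul]
  match_scalars <;> field_simp <;> ring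

theorem ev_trace (h2 : (2 : F) ≠ 0) {t : M3 F} (h : t.trace = -1) : (ev t).trace = 1 := by
  rw [ev, trace_smul, trace_add, h, trace_one]; simp; field_simp; ring

theorem ev_comm {t g : M3 F} (h : t * g = g * t) : ev t * g = g * ev t := by
  simp only [ev, smul_mul_assoc, mul_smul_comm, mul_add, add_mul, h, one_mul, mul_one]

theorem ev_ne (h2 : (2 : F) ≠ 0) {t : M3 F} (h : t.trace = -1) : ev t ≠ 0 := fun c => by
  have := ev_trace h2 h
  rw [c] at this; simp at this

theorem mul_ev (h2 : (2 : F) ≠ 0) {t g : M3 F} (ht : t * t = 1) (h1 : t.trace = -1)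
    (h : t * g = g * t) : ∃ l : F, g * ev t = l • ev t := by
  refine ⟨_, Eq.trans ?_ (rank_one h2 (ev_idem h2 ht) (ev_trace h2 h1) g)⟩
  rw [ev_comm h, mul_assoc, ev_idem h2 ht]

theorem ev_orth (h2 : (2 : F) ≠ 0) {a b : M3 F} (ha : a * a = 1) (ha' : a.trace = -1)
    (hb : b * b = 1) (hb' : b.trace = -1) (h : a * b = b * a) (hne : a ≠ b) : ev a * ev b = 0 := by
  have c : ev a * ev b = ev b * ev a := ev_comm (ev_comm h.symm).symm
  obtain ⟨l, hl⟩ := mul_ev h2 hb hb' (ev_comm h).symm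
  obtain ⟨m, hm⟩ := mul_ev h2 ha ha' (ev_comm h.symm).symm
  by_contra h0
  have l0 : l ≠ 0 := fun c => h0 (by rw [hl, c, zero_smul])
  have m0 : m ≠ 0 := fun d => h0 (by rw [c, hm, d, zero_smul])
  have e1 : ev a * ev b = ev b := by
    have : l • (ev a * ev b) = l • ev b := by
      rw [← mul_smul_comm, ← hl, ← mul_assoc, ev_idem h2 ha]
    exact smul_right_injective _ l0 this
  have e2 : ev b * ev a = ev a := by
    have : m • (ev b * ev a) = m • ev a := by
      rw [← mul_smul_comm, ← hm, ← mul_assoc, ev_idem h2 hb]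
    exact smul_right_injective _ m0 this
  exact hne (by rw [two_ev h2 a, two_ev h2 b, ← e2, ← c, e1])

/-- the `2`-rank of `SL₃` is two -/
theorem rank_two (h2 : (2 : F) ≠ 0) {a b d : M3 F} (ha : a * a = 1) (ha' : a.trace = -1)
    (hb : b * b = 1) (hb' : b.trace = -1) (hd : d * d = 1) (hd' : d.trace = -1)
    (hab : a * b = b * a) (had : a * d = d * a) (hbd : b * d = d * b) (h1 : a ≠ b) (h3 : a ≠ d)
    (h4 : b ≠ d) : a * b = d := by
  by_contra h5
  have o1 := ev_orth h2 ha ha' hb hb' hab h1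
  have e : ev (a * b) = 1 - ev a - ev b := by
    have : a * b = 1 - (2 : F) • ev a - (2 : F) • ev b := by
      conv_lhs => rw [two_ev h2 a, two_ev h2 b]
      simp only [mul_sub, sub_mul, smul_mul_assoc, mul_smul_comm, o1, one_mul, mul_one, smul_zero]
      module
    rw [ev, this]
    match_scalars <;> field_simp <;> ring
  have o2 := ev_orth h2 (a := a * b) (b := d)
    (by rw [mul_assoc, ← mul_assoc b, ← hab, mul_assoc, hb, mul_one, ha])
    (by
      have := congrArg trace e
      rw [trace_sub, trace_sub, ev_trace h2 ha', ev_trace h2 hb', ev, trace_smul, trace_add,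
        trace_one] at this
      simp at this
      field_simp at this
      linear_combination this) hd hd'
    (by rw [mul_assoc, hbd, ← mul_assoc, had, mul_assoc]) h5
  rw [e, sub_mul, sub_mul, ev_orth h2 ha ha' hd hd' had h3, ev_orth h2 hb hb' hd hd' hbd h4] at o2
  exact ev_ne h2 hd' (by simpa using o2)

theorem ev_eq_vecMulVec (h2 : (2 : F) ≠ 0) {t : M3 F} (ht : t * t = 1) (h1 : t.trace = -1)
    {w : Fin 3 → F} (hw : w ≠ 0) (h : t *ᵥ w = w) : ∃ b, ev t = vecMulVec w b ∧ b ⬝ᵥ w = 1 := by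
  obtain ⟨i, hi⟩ := Function.ne_iff.1 hw
  have e : ev t *ᵥ w = w := by
    rw [ev, smul_mulVec, add_mulVec, one_mulVec, h]
    match_scalars; field_simp; ring
  have r := rank_one h2 (ev_idem h2 ht) (ev_trace h2 h1) (vecMulVec w (Pi.single i (w i)⁻¹))
  have hi' : w i ≠ 0 := hi
  rw [mul_vecMulVec, e, trace_vecMulVec, vecMulVec_mul, dotProduct_single, mul_inv_cancel₀ hi',
    one_smul] at r
  refine ⟨_, r.symm, ?_⟩
  rw [← dotProduct_mulVec, e, single_dotProduct, inv_mul_cancel₀ hi']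

theorem ev_mul_of_fix (h2 : (2 : F) ≠ 0) {s t : M3 F} (hs : s * s = 1) (hs1 : s.trace = -1)
    (ht : t * t = 1) (ht1 : t.trace = -1) {w : Fin 3 → F} (hw : w ≠ 0) (h : s *ᵥ w = w)
    (h' : t *ᵥ w = w) : ev s * ev t = ev t := by
  obtain ⟨b, e1, e2⟩ := ev_eq_vecMulVec h2 hs hs1 hw h
  obtain ⟨c, e3, -⟩ := ev_eq_vecMulVec h2 ht ht1 hw h'
  rw [e1, e3, vecMulVec_mul_vecMulVec, e2, one_smul]

theorem ev_mul_of_fix' (h2 : (2 : F) ≠ 0) {s t : M3 F} (hs : s * s = 1) (hs1 : s.trace = -1)
    (ht : t * t = 1) (ht1 : t.trace = -1) {w : Fin 3 → F} (hw : w ≠ 0) (h : w ᵥ* s = w)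
    (h' : w ᵥ* t = w) : ev s * ev t = ev s := by
  have e : ∀ x : M3 F, ev xᵀ = (ev x)ᵀ := fun x => by simp [ev]
  have := ev_mul_of_fix h2 (s := tᵀ) (t := sᵀ) (by rw [← transpose_mul, ht, transpose_one])
    (by rwa [trace_transpose]) (by rw [← transpose_mul, hs, transpose_one])
    (by rwa [trace_transpose]) hw (by rwa [mulVec_transpose]) (by rwa [mulVec_transpose])
  rwa [e, e, ← transpose_mul, transpose_inj] at this

theorem comm_of_ev (h2 : (2 : F) ≠ 0) {S : Set (M3 F)}
    (h : (∀ s ∈ S, ∀ t ∈ S, ev s * ev t = ev t) ∨ ∀ s ∈ S, ∀ t ∈ S, ev s * ev t = ev s)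
    {a b c d : M3 F} (ha : a ∈ S) (hb : b ∈ S) (hc : c ∈ S) (hd : d ∈ S) :
    a * b * (c * d) = c * d * (a * b) := by
  rw [two_ev h2 a, two_ev h2 b, two_ev h2 c, two_ev h2 d]
  rcases h with h | h <;>
  · simp only [mul_sub, sub_mul, smul_mul_assoc, mul_smul_comm, one_mul, mul_one, smul_sub,
      h _ ha _ hb, h _ hc _ hd, h _ ha _ hc, h _ ha _ hd, h _ hb _ hc, h _ hb _ hd, h _ hc _ ha,
      h _ hc _ hb, h _ hd _ ha, h _ hd _ hb, smul_smul]
    module

theorem eq_one_of_unip {g : M3 F} {n : ℕ} (hn : (n : F) ≠ 0) (h : g ^ n = 1)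
    (h3 : (g - 1) ^ 3 = 0) : g = 1 := by
  have h1 : (∑ i ∈ Finset.range n, g ^ i) * (g - 1) = 0 := by rw [geom_sum_mul, h, sub_self]
  have h2 : IsNilpotent ((∑ i ∈ Finset.range n, g ^ i) - (n : M3 F)) := by
    have : (∑ i ∈ Finset.range n, g ^ i) - (n : M3 F) = ∑ i ∈ Finset.range n, (g ^ i - 1) := by
      rw [Finset.sum_sub_distrib]; simp
    rw [this]
    have c : ∀ i : ℕ, Commute g (g ^ i - 1) := fun i =>
      ((Commute.refl g).pow_right i).sub_right (Commute.one_right g)
    refine Commute.isNilpotent_sum (fun i _ => ?_) fun i j _ _ =>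
      ((c j).pow_left i).sub_left (Commute.one_left _)
    rw [← geom_sum_mul]
    exact Commute.isNilpotent_mul_left (Commute.sum_left _ _ _ fun k _ =>
      ((Commute.refl g).pow_left k).sub_right (Commute.one_right _)) ⟨3, h3⟩
  have h4 : IsUnit (n : M3 F) := by
    have : (n : M3 F) = algebraMap F (M3 F) n := by simp
    rw [this]; exact (IsUnit.mk0 _ hn).map _
  have h5 : IsUnit (∑ i ∈ Finset.range n, g ^ i) := by
    have := h2.isUnit_add_left_of_commute h4 (Nat.cast_commute n _).symm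
    simpa using this
  exact sub_eq_zero.1 ((h5.mul_right_eq_zero).1 h1)

theorem unip_of_tr {g : M3 F} (hd : g.det = 1) (h1 : g.trace = 3) (h2 : g.adjugate.trace = 3) :
    (g - 1) ^ 3 = 0 := by
  have := ch3 g
  rw [h1, h2, hd] at this
  simp only [pow_succ, pow_zero, mul_sub, sub_mul, one_mul, mul_one, this]
  module

theorem cube_of_tr {g : M3 F} (hd : g.det = 1) (h1 : g.trace = 0) (h2 : g.adjugate.trace = 0) :
    g ^ 3 = 1 := by
  have := ch3 g
  rw [h1, h2, hd] at this
  simpa [pow_succ] using this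

/-- an eigenvalue `1` makes the trace real -/
theorem tr_eq_of_fix {g E : M3 F} (hd : g.det = 1) (hE : E ≠ 0) (h : g * E = E) :
    g.adjugate.trace = g.trace := by
  have := congrArg (· * E) (ch3 g)
  simp only [mul_assoc, h, hd, add_mul, sub_mul, smul_mul_assoc, one_mul, one_smul] at this
  refine (sub_eq_zero.1 ((smul_eq_zero.1 (?_ : (g.trace - g.adjugate.trace) • E = 0)).resolve_right
    hE)).symm
  rw [sub_smul]
  linear_combination (norm := module) -this

end Cfsg.Agent.MiB
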