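import Cfsg.Agent.MiB.B0
import Cfsg.Agent.H18.Mi0
import Cfsg.Agent.H13.GA1
import Cfsg.Agent.S0205

/-! Simple subgroups of `PSL₃(q)`, `q` odd, are absolutely irreducible. -/

set_option autoImplicit false

namespace Cfsg.Agent.MiB

open Matrix Cfsg.Geo Cfsg.Agent.H18 Cfsg.Agent.H18.Mi Module
open scoped MatrixGroups commutatorElement

variable {F : Type*} [Field F]

/-- the projection to the projective group -/
abbrev pr : GL (Fin 3) F →* PGL(3, F) := ProjGenLinGroup.mk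

/-- the image of the special linear group -/
abbrev PS (F : Type*) [Field F] : Subgroup PGL(3, F) := (specialLinear (Fin 3) F).map pr

instance finPGL [Finite F] : Finite PGL(3, F) :=
  Finite.of_surjective _ ProjGenLinGroup.mk_surjective

theorem pr_eq_one {g : GL (Fin 3) F} : pr g = 1 ↔ g ∈ scalars (Fin 3) F := by
  rw [H28.mem_scalars_iff_center]; exact QuotientGroup.eq_one_iff _

theorem pr_eq {g h : GL (Fin 3) F} : pr g = pr h ↔ ∃ z ∈ scalars (Fin 3) F, g = z * h := by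
  rw [← mul_inv_eq_one, ← map_inv, ← map_mul, pr_eq_one]
  exact ⟨fun c => ⟨_, c, by simp⟩, by rintro ⟨z, hz, rfl⟩; simpa using hz⟩

theorem mem_sl {g : GL (Fin 3) F} : g ∈ specialLinear (Fin 3) F ↔ (g : M3 F).det = 1 := by
  rw [specialLinear, MonoidHom.mem_ker, Units.ext_iff]; rfl

theorem cube_of_scalar {z : GL (Fin 3) F} (h : z ∈ scalars (Fin 3) F)
    (h' : z ∈ specialLinear (Fin 3) F) : z ^ 3 = 1 := by
  obtain ⟨c, hc⟩ := (mem_scalars_iff z).1 h
  have := mem_sl.1 h'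
  rw [hc, det_smul, det_one, mul_one, Fintype.card_fin] at this
  exact Units.ext (by rw [Units.val_pow_eq_pow_val, hc, smul_pow, this, one_pow, one_smul]; rfl)

theorem pq_equiv (P : Subgroup (GL (Fin 3) F)) : Nonempty (PQ P ≃* P.map pr) := by
  have h : (scalars (Fin 3) F).subgroupOf P = (pr.comp P.subtype).ker :=
    Subgroup.ext fun x => by rw [Subgroup.mem_subgroupOf, ← pr_eq_one]; rfl
  exact ⟨(QuotientGroup.quotientMulEquivOfEq h).trans ((QuotientGroup.quotientKerEquivRange _).trans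
    (MulEquiv.subgroupCongr (by rw [MonoidHom.range_comp, P.range_subtype])))⟩

/-- elements of order prime to three lift -/
theorem exists_lift {P : Subgroup (GL (Fin 3) F)} (hP : P ≤ specialLinear (Fin 3) F)
    {x : PGL(3, F)} (hx : x ∈ P.map pr) {n : ℕ} (hn : Nat.Coprime 3 n) (h : x ^ n = 1) :
    ∃ g ∈ P, pr g = x ∧ g ^ n = 1 := by
  obtain ⟨g, hg, rfl⟩ := hx
  obtain ⟨k, hk⟩ : ∃ k : ℕ, 3 * k ≡ 1 [MOD n] := by
    rcases Nat.lt_or_ge 1 n with h1 | h1
    · obtain ⟨k, -, hk⟩ := Nat.exists_mul_mod_eq_one_of_coprime hn h1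
      exact ⟨k, by rw [Nat.ModEq, hk, Nat.mod_eq_of_lt h1]⟩
    · obtain rfl | rfl : n = 0 ∨ n = 1 := by omega
      · simp at hn
      · exact ⟨0, Nat.modEq_one⟩
  refine ⟨g ^ (3 * k), pow_mem hg _, ?_, ?_⟩
  · rw [map_pow, pow_eq_pow_of_modEq hk h, pow_one]
  · rw [← pow_mul, show 3 * k * n = n * 3 * k by ring, pow_mul, pow_mul,
      cube_of_scalar (pr_eq_one.1 (by rw [map_pow, h])) (hP (pow_mem hg _)), one_pow]

/-- uniqueness of the lift -/
theorem lift_unique {g h : GL (Fin 3) F} (hg : g ∈ specialLinear (Fin 3) F)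
    (hh : h ∈ specialLinear (Fin 3) F) {n : ℕ} (hn : Nat.Coprime 3 n) (h1 : g ^ n = 1)
    (h2 : h ^ n = 1) (e : pr g = pr h) : g = h := by
  obtain ⟨z, hz, rfl⟩ := pr_eq.1 e
  have h3 : z ^ 3 = 1 := cube_of_scalar hz (by simpa using mul_mem hg (inv_mem hh))
  rw [(show Commute z h from scalars_comm hz h).mul_pow, h2, mul_one] at h1
  have : z = 1 := by
    rw [← orderOf_eq_one_iff, ← Nat.dvd_one, ← hn]
    exact Nat.dvd_gcd (orderOf_dvd_of_pow_eq_one h3) (orderOf_dvd_of_pow_eq_one h1)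
  rw [this, one_mul]

theorem lift_conj {g h : GL (Fin 3) F} (hg : g ∈ specialLinear (Fin 3) F)
    (hh : h ∈ specialLinear (Fin 3) F) {n : ℕ} (hn : Nat.Coprime 3 n) (h1 : g ^ n = 1)
    (h2 : h ^ n = 1) {y : GL (Fin 3) F} (e : pr y * pr g * (pr y)⁻¹ = pr h) : y * g * y⁻¹ = h :=
  lift_unique ((MonoidHom.normal_ker _).conj_mem g hg y) hh hn (by rw [conj_pow, h1]; simp) h2
    (by simpa using e)

theorem tr_of_invol {t : GL (Fin 3) F} (h : t ∈ specialLinear (Fin 3) F) (h2 : t ^ 2 = 1)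
    (h1 : t ≠ 1) : (t : M3 F) * t = 1 ∧ (t : M3 F).trace = -1 := by
  have : (t : M3 F) * t = 1 := by rw [← Units.val_mul, ← pow_two, h2]; rfl
  exact ⟨this, tr_invol this (mem_sl.1 h) fun c => h1 (Units.ext c)⟩

theorem line_or_coline {P : Subgroup (GL (Fin 3) F)} (h : ¬ Irr P) :
    (∃ w : Fin 3 → F, w ≠ 0 ∧ ∀ x ∈ P, ∃ c : F, (x : M3 F) *ᵥ w = c • w) ∨
      ∃ w : Fin 3 → F, w ≠ 0 ∧ ∀ x ∈ P, ∃ c : F, w ᵥ* (x : M3 F) = c • w := by
  simp only [Irr, not_forall, not_or] at h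
  obtain ⟨W, hW, h0, h1⟩ := h
  have f1 : finrank F W < 3 := by simpa using Submodule.finrank_lt h1
  have f0 : finrank F W ≠ 0 := fun c => h0 (Submodule.finrank_eq_zero.1 c)
  obtain f | f : finrank F W = 1 ∨ finrank F W = 2 := by omega
  · obtain ⟨v, hv, h⟩ := finrank_eq_one_iff'.1 f
    refine Or.inl ⟨v, fun c => hv (Subtype.ext c), fun x hx => ?_⟩
    obtain ⟨c, hc⟩ := h ⟨_, hW x hx _ v.2⟩
    exact ⟨c, (congrArg Subtype.val hc).symm⟩
  · have := Subspace.finrank_add_finrank_dualAnnihilator_eq W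
    rw [f] at this
    simp only [finrank_fintype_fun_eq_card, Fintype.card_fin] at this
    have fr : Free F W.dualAnnihilator := Free.of_divisionRing F W.dualAnnihilator
    obtain ⟨φ, hφ, h⟩ := (finrank_eq_one_iff' (K := F) (V := W.dualAnnihilator)).1 (by omega)
    refine Or.inr ⟨fun i => φ.1 (Pi.single i 1), fun c => hφ (Subtype.ext (Pi.basisFun F _ |>.ext
      fun i => by simpa using congrFun c i)), fun x hx => ?_⟩
    obtain ⟨c, hc⟩ := h ⟨φ.1.comp (toLin' (x : M3 F)), (Submodule.mem_dualAnnihilator _).2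
      fun w hw => (Submodule.mem_dualAnnihilator _).1 φ.2 _ (hW x hx w hw)⟩
    refine ⟨c, funext fun j => ?_⟩
    have := LinearMap.congr_fun (congrArg Subtype.val hc) (Pi.single j 1)
    simp only [SetLike.val_smul, LinearMap.smul_apply, LinearMap.comp_apply, toLin'_apply] at this
    rw [Pi.smul_apply, this, LinearMap.pi_apply_eq_sum_univ φ.1]
    simp only [vecMul, dotProduct, mulVec_single_one, smul_eq_mul, mul_comm]
    refine Finset.sum_congr rfl fun i _ => ?_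
    congr 2
    ext k
    simp [Pi.single_apply, eq_comm]

theorem fix_of_perfect {P : Subgroup (GL (Fin 3) F)} (hP : ⁅P, P⁆ = P) {V : Type*}
    [AddCommGroup V] [Module F V] (ρ : GL (Fin 3) F →* Module.End F V) {w : V}
    (h : ∀ x ∈ P, ∃ c : F, ρ x w = c • w) : ∀ x ∈ P, ρ x w = w := by
  let S : Subgroup (GL (Fin 3) F) :=
    { carrier := {x | ρ x w = w}
      mul_mem' := fun {a b} ha hb => by
        change ρ (a * b) w = w
        rw [map_mul, Module.End.mul_apply, hb, ha]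
      one_mem' := by simp
      inv_mem' := fun {a} ha => by
        change ρ a⁻¹ w = w
        conv_lhs => rw [← ha]
        rw [← Module.End.mul_apply, ← map_mul]; simp }
  refine fun x hx => (hP.ge.trans (Subgroup.commutator_le.2 fun a ha b hb => ?_) : P ≤ S) hx
  obtain ⟨c, hc⟩ := h a ha
  obtain ⟨d, hd⟩ := h b hb
  obtain ⟨c', hc'⟩ := h _ (inv_mem ha)
  obtain ⟨d', hd'⟩ := h _ (inv_mem hb)
  have e : ρ (a * a⁻¹ * b * b⁻¹) w = w := by simp
  change ρ (a * b * a⁻¹ * b⁻¹) w = w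
  simp only [map_mul, Module.End.mul_apply, hc, hd, hc', hd', map_smul, smul_smul] at e ⊢
  convert e using 2
  ring

/-- the action on row vectors -/
def rowRep : GL (Fin 3) F →* Module.End F (Fin 3 → F) where
  toFun x := toLin' ((x⁻¹ : GL (Fin 3) F) : M3 F)ᵀ
  map_one' := by simp; rfl
  map_mul' x y := by rw [_root_.mul_inv_rev, Units.val_mul, transpose_mul, toLin'_mul]; rfl

/-- the action on column vectors -/
def colRep : GL (Fin 3) F →* Module.End F (Fin 3 → F) where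
  toFun x := toLin' (x : M3 F)
  map_one' := by simp; rfl
  map_mul' x y := by rw [Units.val_mul, toLin'_mul]; rfl

theorem eq_bot_or_eq_map {P N : Subgroup (GL (Fin 3) F)} [hs : IsSimpleGroup (P.map pr)]
    (hN : N ≤ P) (hn : ∀ g ∈ P, ∀ x ∈ N, g * x * g⁻¹ ∈ N) : N.map pr = ⊥ ∨ N.map pr = P.map pr := by
  have : ((N.map pr).subgroupOf (P.map pr)).Normal := ⟨by
    rintro ⟨_, x, hx, rfl⟩ ⟨y, hy, e⟩ ⟨_, g, hg, rfl⟩
    exact ⟨_, hn g hg y hy, by simp [e]⟩⟩
  rcases this.eq_bot_or_eq_top with h | h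
  · exact Or.inl (by
      rwa [Subgroup.subgroupOf_eq_bot, disjoint_iff, inf_eq_left.2 (Subgroup.map_mono hN)] at h)
  · exact Or.inr (le_antisymm (Subgroup.map_mono hN) (Subgroup.subgroupOf_eq_top.1 h))

theorem core_of [Finite F] (h2 : (2 : F) ≠ 0) {P : Subgroup (GL (Fin 3) F)}
    (hle : P ≤ specialLinear (Fin 3) F) (hP : ⁅P, P⁆ = P) [hs : IsSimpleGroup (P.map pr)]
    (hc : ¬ IsMulCommutative (P.map pr)) : Core P := by
  obtain ⟨e⟩ := pq_equiv P
  obtain ⟨t, ht, ht1, ht2⟩ : ∃ t ∈ P, pr t ≠ 1 ∧ t ^ 2 = 1 := by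
    have : 2 ∣ Nat.card (P.map pr) := by
      by_contra c
      have := S0205.result (G := P.map pr) (Nat.not_even_iff_odd.1 (by rwa [even_iff_two_dvd]))
      exact hc ⟨⟨IsSimpleGroup.comm_iff_isSolvable.2 this⟩⟩
    obtain ⟨x, hx⟩ := exists_prime_orderOf_dvd_card' 2 this
    obtain ⟨t, ht, e1, e2⟩ := exists_lift hle x.2 (n := 2) (by decide)
      (by rw [← Subgroup.coe_pow, ← hx, pow_orderOf_eq_one]; rfl)
    refine ⟨t, ht, fun c => ?_, e2⟩
    rw [show x = 1 from Subtype.ext (e1.symm.trans c)] at hx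
    simp at hx
  have inv : ∀ g ∈ P, ((g * t * g⁻¹ : GL (Fin 3) F) : M3 F) * (g * t * g⁻¹ : GL (Fin 3) F) = 1 ∧
      ((g * t * g⁻¹ : GL (Fin 3) F) : M3 F).trace = -1 := fun g hg =>
    tr_of_invol (hle (mul_mem (mul_mem hg ht) (inv_mem hg))) (by rw [conj_pow, ht2]; simp)
      fun c => ht1 (by rw [show t = 1 by simpa using c, map_one])
  have hI : Irr P := by
    by_contra hI
    let S : Set (M3 F) := {s | ∃ g ∈ P, s = ((g * t * g⁻¹ : GL (Fin 3) F) : M3 F)}
    have hS : (∀ s ∈ S, ∀ t ∈ S, ev s * ev t = ev t) ∨ ∀ s ∈ S, ∀ t ∈ S, ev s * ev t = ev s := by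
      refine (line_or_coline hI).imp ?_ ?_ <;> rintro ⟨w, hw, h⟩ _ ⟨a, ha, rfl⟩ _ ⟨b, hb, rfl⟩
      · have := fix_of_perfect hP colRep h
        exact ev_mul_of_fix h2 (inv a ha).1 (inv a ha).2 (inv b hb).1 (inv b hb).2 hw
          (this _ (mul_mem (mul_mem ha ht) (inv_mem ha)))
          (this _ (mul_mem (mul_mem hb ht) (inv_mem hb)))
      · have := fix_of_perfect hP rowRep (w := w) fun x hx => by
          simpa [rowRep, mulVec_transpose] using h _ (inv_mem hx)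
        have this : ∀ x ∈ P, w ᵥ* (x : M3 F) = w := fun x hx => by
          simpa [rowRep, mulVec_transpose] using this _ (inv_mem hx)
        exact ev_mul_of_fix' h2 (inv a ha).1 (inv a ha).2 (inv b hb).1 (inv b hb).2 hw
          (this _ (mul_mem (mul_mem ha ht) (inv_mem ha)))
          (this _ (mul_mem (mul_mem hb ht) (inv_mem hb)))
    let T : Set (GL (Fin 3) F) := {u | ∃ a ∈ P, ∃ b ∈ P, u = a * t * a⁻¹ * (b * t * b⁻¹)}
    have hT : ∀ u ∈ T, ∀ v ∈ T, u * v = v * u := by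
      rintro _ ⟨a, ha, b, hb, rfl⟩ _ ⟨c, hc, d, hd, rfl⟩
      exact Units.ext (comm_of_ev h2 hS ⟨a, ha, rfl⟩ ⟨b, hb, rfl⟩ ⟨c, hc, rfl⟩ ⟨d, hd, rfl⟩)
    have := Subgroup.isMulCommutative_closure fun u hu v hv => hT u hu v hv
    have hb : (Subgroup.closure T).map pr = ⊥ := by
      refine (eq_bot_or_eq_map (P := P) ((Subgroup.closure_le _).2 ?_) fun g hg x hx => ?_
        ).resolve_right fun c => hc (c ▸ inferInstance)
      · rintro _ ⟨a, ha, b, hb, rfl⟩
        exact mul_mem (mul_mem (mul_mem ha ht) (inv_mem ha)) (mul_mem (mul_mem hb ht) (inv_mem hb))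
      · refine ((Subgroup.closure_le ((Subgroup.closure T).comap (MulAut.conj g).toMonoidHom)).2
          ?_) hx
        rintro _ ⟨a, ha, b, hb, rfl⟩
        exact Subgroup.subset_closure ⟨_, mul_mem hg ha, _, mul_mem hg hb, by simp; group⟩
    have hz : (⟨pr t, t, ht, rfl⟩ : P.map pr) ∈ Subgroup.center (P.map pr) :=
      Subgroup.mem_center_iff.2 (by
        rintro ⟨_, g, hg, rfl⟩
        have : pr (g * t * g⁻¹ * (1 * t * 1⁻¹)) = 1 := Subgroup.mem_bot.1
          (hb ▸ Subgroup.mem_map_of_mem _ (Subgroup.subset_closure ⟨g, hg, 1, one_mem _, rfl⟩))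
        have h3 : pr t * pr t = 1 := by rw [← map_mul, ← pow_two, ht2, map_one]
        simp only [map_mul, map_inv, inv_one, mul_one, one_mul] at this
        refine Subtype.ext ?_
        change pr g * pr t = pr t * pr g
        rw [← mul_inv_eq_iff_eq_mul, eq_inv_of_mul_eq_one_left this, inv_eq_of_mul_eq_one_right h3])
    rcases (Subgroup.center (P.map pr)).normal_of_characteristic.eq_bot_or_eq_top with c | c
    · rw [c, Subgroup.mem_bot] at hz
      exact ht1 (congrArg Subtype.val hz)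
    · exact hc ⟨⟨fun a b => (Subgroup.mem_center_iff.1 (c ▸ Subgroup.mem_top b) a)⟩⟩
  refine ⟨hle, hP, e.isSimpleGroup, fun c => hc ⟨⟨fun a b => e.symm.injective (by
    rw [map_mul, map_mul, c.1.1])⟩⟩, (irr_iff P).1 hI, fun M hM => ?_⟩
  have i1 := inv 1 (one_mem _)
  simp only [one_mul, inv_one, mul_one] at i1
  obtain ⟨l, hl⟩ := mul_ev h2 i1.1 i1.2 (hM _ ⟨t, ht, rfl⟩).symm
  refine ⟨l, sub_eq_zero.1 (toLin'.injective ?_)⟩
  rw [map_zero, ← LinearMap.ker_eq_top]
  refine (hI _ fun x hx v hv => ?_).resolve_left fun c => ev_ne h2 i1.2 (toLin'.injective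
    (LinearMap.ext fun v => ?_))
  · rw [LinearMap.mem_ker, toLin'_apply] at hv ⊢
    have : (M - l • 1) * (x : M3 F) = x * (M - l • 1) := by
      rw [sub_mul, mul_sub, hM _ ⟨x, hx, rfl⟩]; simp
    rw [mulVec_mulVec, this, ← mulVec_mulVec, hv, mulVec_zero]
  · rw [map_zero]
    refine (Submodule.mem_bot F).1 (c.le ?_)
    rw [LinearMap.mem_ker, toLin'_apply, toLin'_apply, mulVec_mulVec, sub_mul, hl]; simp

theorem exists_core [Finite F] (h2 : (2 : F) ≠ 0) {L : Subgroup PGL(3, F)} (hL : L ≤ PS F)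
    [hs : IsSimpleGroup L] (hc : ¬ IsMulCommutative L) : ∃ P : Subgroup (GL (Fin 3) F), Core P ∧
      P.map pr = L ∧ ∀ g, (∀ x ∈ L, pr g * x * (pr g)⁻¹ ∈ L) → ∀ x ∈ P, g * x * g⁻¹ ∈ P := by
  let A : Subgroup (GL (Fin 3) F) := L.comap pr ⊓ specialLinear (Fin 3) F
  have hA : A.map pr = L := le_antisymm ((Subgroup.map_mono inf_le_left).trans
    (Subgroup.map_comap_le _ _)) fun x hx => by
      obtain ⟨g, hg, rfl⟩ := hL hx
      exact ⟨g, ⟨hx, hg⟩, rfl⟩
  have hLL : ⁅L, L⁆ = L := by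
    have h1 : commutator L = ⊤ :=
      (Subgroup.Normal.eq_bot_or_eq_top inferInstance).resolve_left fun c =>
        hc ((commutator_eq_bot_iff _).1 c)
    have := congrArg (Subgroup.map L.subtype) h1
    rwa [commutator_def, Subgroup.map_commutator, ← MonoidHom.range_eq_map, L.range_subtype] at this
  have hP : (⁅A, A⁆).map pr = L := by rw [Subgroup.map_commutator, hA, hLL]
  have key : ∀ a ∈ A, ∃ z ∈ scalars (Fin 3) F, ∃ x ∈ ⁅A, A⁆, a = z * x := fun a ha => by
    obtain ⟨x, hx, e⟩ := hP.ge ha.1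
    obtain ⟨z, hz, e⟩ := pr_eq.1 e.symm
    exact ⟨z, hz, x, hx, e⟩
  have : IsSimpleGroup ((⁅A, A⁆ : Subgroup _).map pr) := by rw [hP]; exact hs
  refine ⟨⁅A, A⁆, core_of h2 ((Subgroup.commutator_le_self A).trans inf_le_right)
    (le_antisymm (Subgroup.commutator_le_self _) (Subgroup.commutator_le.2 fun a ha b hb => ?_))
    (by rw [hP]; exact hc), hP, fun g hg x hx => ?_⟩
  · obtain ⟨z, hz, x, hx, rfl⟩ := key a ha
    obtain ⟨w, hw, y, hy, rfl⟩ := key b hb
    convert Subgroup.commutator_mem_commutator hx hy using 1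
    have cz := fun g => scalars_comm (inv_mem hz) g
    have cw := fun g => scalars_comm (inv_mem hw) g
    simp only [commutatorElement_def, _root_.mul_inv_rev]
    calc z * x * (w * y) * (x⁻¹ * z⁻¹) * (y⁻¹ * w⁻¹)
        = z * (x * (w * y) * x⁻¹ * z⁻¹) * (y⁻¹ * w⁻¹) := by group
      _ = x * (w * (y * x⁻¹ * y⁻¹ * w⁻¹)) := by rw [← cz]; group
      _ = _ := by rw [← cw]; group
  · have : (⁅A, A⁆).map (MulAut.conj g).toMonoidHom ≤ ⁅A, A⁆ := by
      rw [Subgroup.map_commutator]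
      have : A.map (MulAut.conj g).toMonoidHom ≤ A := by
        rintro _ ⟨a, ha, rfl⟩
        exact ⟨by simpa using hg _ ha.1, (MonoidHom.normal_ker _).conj_mem a ha.2 g⟩
      exact Subgroup.commutator_mono this this
    exact this ⟨x, hx, rfl⟩

/-- the centraliser of the image of a core is trivial -/
theorem eq_one_of_comm [Finite F] {P : Subgroup (GL (Fin 3) F)} (h : Core P) {c : PGL(3, F)}
    (hc : ∀ x ∈ P.map pr, c * x = x * c) : c = 1 := by
  obtain ⟨g, rfl⟩ := ProjGenLinGroup.mk_surjective c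
  refine pr_eq_one.2 (mem_scalars_of_commute h.span fun x hx => ?_)
  have key : ∀ x ∈ P, ∃ z ∈ scalars (Fin 3) F, g * x * g⁻¹ = z * x := fun x hx =>
    pr_eq.1 (by rw [map_mul, map_mul, hc _ ⟨x, hx, rfl⟩]; simp)
  refine (Subgroup.mem_centralizer_singleton_iff.1 ((h.perfect.ge.trans
    (Subgroup.commutator_le.2 fun a ha b hb => ?_) : P ≤ Subgroup.centralizer {g}) hx)).symm
  obtain ⟨z, hz, e1⟩ := key a ha
  obtain ⟨w, hw, e2⟩ := key b hb
  rw [Subgroup.mem_centralizer_singleton_iff, eq_comm, ← mul_inv_eq_iff_eq_mul]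
  have cz := fun g => scalars_comm (inv_mem hz) g
  have cw := fun g => scalars_comm (inv_mem hw) g
  calc g * ⁅a, b⁆ * g⁻¹ = (g * a * g⁻¹) * (g * b * g⁻¹) * (g * a * g⁻¹)⁻¹ * (g * b * g⁻¹)⁻¹ := by
        rw [commutatorElement_def]; group
    _ = z * (a * (w * b) * a⁻¹ * z⁻¹) * (b⁻¹ * w⁻¹) := by rw [e1, e2]; group
    _ = a * (w * (b * a⁻¹ * b⁻¹ * w⁻¹)) := by rw [← cz]; group
    _ = _ := by rw [← cw, commutatorElement_def]; group

end Cfsg.Agent.MiB
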