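import Cfsg.Agent.MiB.B1
import Cfsg.Agent.H12.DicksonPSL
import Cfsg.Agent.H12.Transport
import Cfsg.Agent.H4.Burnside
import Cfsg.Agent.S0253

/-! The conclusion of Bloom's theorem, and the orthogonal case. -/

set_option autoImplicit false

namespace Cfsg.Agent.MiB

open Matrix Cfsg.Geo Cfsg.Agent.H18 Cfsg.Agent.H18.Mi Module
open scoped MatrixGroups commutatorElement

/-- the list of Bloom's theorem -/
def Concl (p α : ℕ) (H : Type*) [Group H] : Prop :=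
    (∃ (K : Type) (_ : Field K) (_ : Fintype K) (β : ℕ), Fintype.card K = p ^ β ∧ β ∣ α ∧ Nonempty (H ≃* Matrix.ProjectiveSpecialLinearGroup (Fin 3) K)) ∨
    (∃ (K : Type) (_ : Field K) (_ : Fintype K) (β : ℕ), Fintype.card K = p ^ (2 * β) ∧ 2 * β ∣ α ∧ Nonempty (H ≃* Cfsg.PSU 3 K (p ^ β))) ∨
    (∃ (K : Type) (_ : Field K) (_ : Fintype K) (β : ℕ), Fintype.card K = p ^ β ∧ 3 ∣ p ^ β - 1 ∧ 3 * β ∣ α ∧ ∃ L : Subgroup H, L.index = 3 ∧ Nonempty (↥L ≃* Matrix.ProjectiveSpecialLinearGroup (Fin 3) K)) ∨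
    (∃ (K : Type) (_ : Field K) (_ : Fintype K) (β : ℕ), Fintype.card K = p ^ (2 * β) ∧ 3 ∣ p ^ β + 1 ∧ 6 * β ∣ α ∧ ∃ L : Subgroup H, L.index = 3 ∧ Nonempty (↥L ≃* Cfsg.PSU 3 K (p ^ β))) ∨
    (∃ (K : Type) (_ : Field K) (_ : Fintype K) (β : ℕ), Fintype.card K = p ^ β ∧ β ∣ α ∧ p ^ β ≠ 3 ∧ (Nonempty (H ≃* Matrix.ProjectiveSpecialLinearGroup (Fin 2) K) ∨ Nonempty (H ≃* (GL (Fin 2) K ⧸ Subgroup.center (GL (Fin 2) K))))) ∨
    ((p ^ α % 10 = 1 ∨ p ^ α % 10 = 9) ∧ ∃ (K : Type) (_ : Field K) (_ : Fintype K), Fintype.card K = 5 ∧ Nonempty (H ≃* Matrix.ProjectiveSpecialLinearGroup (Fin 2) K)) ∨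
    ((p ^ α) ^ 3 % 7 = 1 ∧ ∃ (K : Type) (_ : Field K) (_ : Fintype K), Fintype.card K = 7 ∧ Nonempty (H ≃* Matrix.ProjectiveSpecialLinearGroup (Fin 2) K)) ∨
    (p = 5 ∧ Even α ∧ (Nonempty (H ≃* ↥(alternatingGroup (Fin 6))) ∨ Nonempty (H ≃* ↥(alternatingGroup (Fin 7))) ∨
      ∃ L : Subgroup H, L.index = 2 ∧ Nonempty (↥L ≃* ↥(alternatingGroup (Fin 6))))) ∨
    ((p ^ α % 30 = 1 ∨ p ^ α % 30 = 19) ∧ Nonempty (H ≃* ↥(alternatingGroup (Fin 6))))

theorem Concl.congr {p α : ℕ} {H H' : Type*} [Group H] [Group H'] (e : H' ≃* H)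
    (h : Concl p α H) : Concl p α H' := by
  have a : ∀ {Y : Type} [Group Y], Nonempty (H ≃* Y) → Nonempty (H' ≃* Y) := fun ⟨f⟩ => ⟨e.trans f⟩
  have b : ∀ {Y : Type} [Group Y] {n : ℕ}, (∃ L : Subgroup H, L.index = n ∧ Nonempty (L ≃* Y)) →
      ∃ L : Subgroup H', L.index = n ∧ Nonempty (L ≃* Y) := fun ⟨L, h1, ⟨f⟩⟩ =>
    ⟨L.map (e.symm : H →* H'), (L.index_map_equiv e.symm).trans h1,
      ⟨(e.symm.subgroupMap L).symm.trans f⟩⟩
  rcases h with ⟨K, _, _, β, h1, h2, h3⟩ | ⟨K, _, _, β, h1, h2, h3⟩ | ⟨K, _, _, β, h1, h2, h3, h4⟩ |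
    ⟨K, _, _, β, h1, h2, h3, h4⟩ | ⟨K, _, _, β, h1, h2, h3, h4⟩ | ⟨h1, K, _, _, h2, h3⟩ |
    ⟨h1, K, _, _, h2, h3⟩ | ⟨h1, h2, h3⟩ | ⟨h1, h2⟩
  · exact .inl ⟨K, _, _, β, h1, h2, a h3⟩
  · exact .inr (.inl ⟨K, _, _, β, h1, h2, a h3⟩)
  · exact .inr (.inr (.inl ⟨K, _, _, β, h1, h2, h3, b h4⟩))
  · exact .inr (.inr (.inr (.inl ⟨K, _, _, β, h1, h2, h3, b h4⟩)))
  · exact .inr (.inr (.inr (.inr (.inl ⟨K, _, _, β, h1, h2, h3, h4.imp a a⟩))))
  · exact .inr (.inr (.inr (.inr (.inr (.inl ⟨h1, K, _, _, h2, a h3⟩)))))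
  · exact .inr (.inr (.inr (.inr (.inr (.inr (.inl ⟨h1, K, _, _, h2, a h3⟩))))))
  · exact .inr (.inr (.inr (.inr (.inr (.inr (.inr (.inl ⟨h1, h2, h3.imp a (Or.imp a b)⟩)))))))
  · exact .inr (.inr (.inr (.inr (.inr (.inr (.inr (.inr ⟨h1, a h2⟩)))))))

variable {F : Type*} [Field F]

theorem exists_field0 (E : Type*) [Field E] [Finite E] :
    ∃ (K : Type) (_ : Field K) (_ : Fintype K), Nonempty (K ≃+* E) := by
  have := Fintype.ofFinite E
  let e := (Fintype.equivFin E).symm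
  exact ⟨Fin _, e.field, inferInstance, ⟨e.ringEquiv⟩⟩

theorem card_of_hom [Fintype F] {K : Type*} [Field K] [Fintype K] (j : K →+* F) {p α : ℕ}
    (hp : p.Prime) (hF : Fintype.card F = p ^ α) :
    ∃ β, Fintype.card K = p ^ β ∧ β * (letI := j.toAlgebra; finrank K F) = α := by
  letI := j.toAlgebra
  have h := Module.card_eq_pow_finrank (K := K) (V := F)
  obtain ⟨β, -, hβ⟩ := (Nat.dvd_prime_pow hp).1 (hF ▸ h ▸ dvd_pow_self _ finrank_pos.ne')
  refine ⟨β, hβ, Nat.pow_right_injective hp.two_le ?_⟩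
  simp only
  rw [pow_mul, ← hβ, ← h, hF]

theorem concl_pgl2 [Fintype F] {p α : ℕ} [Fact p.Prime] [CharP F p] (hp : p ≠ 2)
    (hF : Fintype.card F = p ^ α) (Y : Subgroup PGL(2, F)) (hY : ¬ Group.IsSolvable Y) :
    Concl p α Y := by
  have s12 : Nat.card Y ≠ 12 := fun c =>
    hY (H4.burnside_pq Nat.prime_two Nat.prime_three (a := 2) (b := 1) c)
  have s24 : Nat.card Y ≠ 24 := fun c =>
    hY (H4.burnside_pq Nat.prime_two Nat.prime_three (a := 3) (b := 1) c)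
  have h60 : H12.NoCyclicNormal Y → Nat.card Y = 60 → p ≠ 5 → Concl p α Y := fun h1 h2 h5 => by
    obtain ⟨e⟩ := h1.equiv_alt5 h2
    have : Fact (Nat.Prime 5) := ⟨Nat.prime_five⟩
    obtain ⟨f⟩ := S0253.result (F := ZMod 5) (by simp)
    refine .inr (.inr (.inr (.inr (.inr (.inl ⟨?_, ZMod 5, _, inferInstance, by simp, ⟨e.trans f.symm⟩⟩)))))
    obtain ⟨x, hx⟩ := exists_prime_orderOf_dvd_card' (G := Y) 5 (by rw [h2]; decide)
    have := H12.pgl2_orderOf_dvd p (g := x.1) (by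
      rw [Subgroup.orderOf_coe, hx]
      exact fun c => h5 ((Nat.prime_dvd_prime_iff_eq Fact.out Nat.prime_five).1 c))
    rw [Subgroup.orderOf_coe, hx, hF] at this
    have h2 : Odd (p ^ α) := ((Fact.out : p.Prime).odd_of_ne_two hp).pow
    have h3 : 0 < p ^ α := pow_pos (Fact.out : p.Prime).pos _
    rw [Nat.odd_iff] at h2
    omega
  rcases H12.dickson_pgl2 p Y with ⟨x, h, -⟩ | ⟨h, -⟩ | ⟨a, s, h, -⟩ | ⟨h1, ⟨h2, h3⟩ | ⟨h2, h3⟩⟩ |
    ⟨E, k, _, -, h⟩
  · exact absurd (H12.isSolvable_of_fix Y h) hY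
  · exact absurd (Group.isSolvable_of_comm fun a b => (IsCyclic.isMulCommutative (α := Y)).1.1 a b) hY
  · exact absurd h.isSolvable hY
  · have h4 := (h3.resolve_left s12).resolve_left s24
    exact h60 h1 h4 fun c => h2 (by rw [c, h4]; decide)
  · exact h60 h1 h3 (by omega)
  · obtain ⟨K, _, _, ⟨e⟩⟩ := exists_field0 E
    obtain ⟨β, h1, h2⟩ := card_of_hom (E.subtype.comp e.toRingHom) Fact.out hF
    have h3 : Nonempty (Y ≃* PSL(2, K)) ∨ Nonempty (Y ≃* PGL(2, K)) := by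
      rcases h with rfl | rfl
      · obtain ⟨f⟩ := H12.nonempty_subPGL_equiv E k
        exact .inr ⟨f.trans (H12.pglCongr _ e.symm)⟩
      · obtain ⟨f⟩ := H12.nonempty_subPSL_equiv E k
        exact .inl ⟨f.trans (H12.pslCongr _ e.symm)⟩
    refine .inr (.inr (.inr (.inr (.inl ⟨K, _, _, β, h1, ⟨_, h2.symm⟩, fun c => ?_, h3⟩))))
    rcases h3 with ⟨⟨f⟩⟩ | ⟨⟨f⟩⟩
    · have := H12.card_PSL2 (h1.trans c)
      rw [← Nat.card_congr f.toEquiv] at this
      norm_num at this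
      omega
    · exact s24 (by rw [Nat.card_congr f.toEquiv, H12.card_PGL2 (h1.trans c)]; rfl)

/-- the symmetric square -/
def sq2 : Matrix (Fin 2) (Fin 2) F →* M3 F where
  toFun g := !![g 0 0 ^ 2, 2 * g 0 0 * g 0 1, g 0 1 ^ 2;
    g 0 0 * g 1 0, g 0 0 * g 1 1 + g 0 1 * g 1 0, g 0 1 * g 1 1;
    g 1 0 ^ 2, 2 * g 1 0 * g 1 1, g 1 1 ^ 2]
  map_one' := by ext i j; fin_cases i <;> fin_cases j <;> simp
  map_mul' g h := by
    ext i j
    fin_cases i <;> fin_cases j <;> simp [mul_apply, Fin.sum_univ_three, Fin.sum_univ_two] <;> ring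

theorem sq2_apply (g : Matrix (Fin 2) (Fin 2) F) : sq2 g =
    !![g 0 0 ^ 2, 2 * g 0 0 * g 0 1, g 0 1 ^ 2;
    g 0 0 * g 1 0, g 0 0 * g 1 1 + g 0 1 * g 1 0, g 0 1 * g 1 1;
    g 1 0 ^ 2, 2 * g 1 0 * g 1 1, g 1 1 ^ 2] := rfl

/-- the standard conic -/
def G0 (F : Type*) [Field F] : M3 F := !![0, 0, -1; 0, 2, 0; -1, 0, 0]

theorem sq2_form (g : Matrix (Fin 2) (Fin 2) F) :
    (sq2 g)ᵀ * G0 F * sq2 g = g.det ^ 2 • G0 F := by
  ext i j
  fin_cases i <;> fin_cases j <;>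
    simp [sq2_apply, G0, mul_apply, Fin.sum_univ_three, det_fin_two, vecMul, dotProduct] <;> ring

/-- `PGL₂ → PGL₃` -/
def sqP (F : Type*) [Field F] : PGL(2, F) →* PGL(3, F) :=
  ProjGenLinGroup.lift (pr.comp (Units.map sq2)) (MonoidHom.ext fun u =>
    pr_eq_one.2 (mem_scalars_of_eq_smul (c := (u : F) ^ 2) (by
      change sq2 _ = _
      ext i j
      fin_cases i <;> fin_cases j <;> simp [sq2_apply, pow_two])))

theorem sqP_injective : Function.Injective (sqP F) := by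
  refine (injective_iff_map_eq_one _).2 fun x hx => ?_
  obtain ⟨g, rfl⟩ := ProjGenLinGroup.mk_surjective x
  obtain ⟨c, hc⟩ := (mem_scalars_iff _).1 (pr_eq_one.1 hx)
  replace hc : sq2 (g : Matrix (Fin 2) (Fin 2) F) = (c : F) • (1 : M3 F) := hc
  have a := fun i j => congrFun (congrFun hc i) j
  have a00 := a 0 0; have a02 := a 0 2; have a11 := a 1 1; have a20 := a 2 0
  simp [sq2_apply] at a00 a02 a11 a20
  refine (QuotientGroup.eq_one_iff _).2 (H28.mem_scalars_iff_center.1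
    (mem_scalars_of_eq_smul (c := g.1 0 0) ?_))
  have h0 : g.1 0 0 ≠ 0 := fun h => c.ne_zero (by rw [← a00, h]; simp)
  ext i j
  fin_cases i <;> fin_cases j <;> simp [a02, a20]
  refine mul_left_cancel₀ h0 ?_
  rw [a02] at a11
  linear_combination a11 - a00

theorem iso_param {x y z : F} (h : y ^ 2 = x * z) (h0 : ¬ (x = 0 ∧ y = 0 ∧ z = 0)) :
    ∃ l a c : F, l ≠ 0 ∧ x = l * a ^ 2 ∧ y = l * (a * c) ∧ z = l * c ^ 2 := by
  by_cases hx : x = 0
  · have hy : y = 0 := by rw [hx, zero_mul] at h; exact pow_eq_zero_iff (two_ne_zero) |>.1 h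
    exact ⟨z, 0, 1, fun c => h0 ⟨hx, hy, c⟩, by simp [hx], by simp [hy], by simp⟩
  · exact ⟨x⁻¹, x, y, inv_ne_zero hx, by field_simp, by field_simp, by rw [h]; field_simp⟩

theorem mem_range_sqP (h2 : (2 : F) ≠ 0) {h : GL (Fin 3) F} {c : F} (hc : c ≠ 0)
    (hh : (h : M3 F)ᵀ * G0 F * h = c • G0 F) : pr h ∈ (sqP F).range := by
  have hd : (h : M3 F).det ^ 2 = c ^ 3 := by
    have := congrArg det hh
    rw [det_mul, det_mul, det_transpose, det_smul] at this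
    have h3 : (G0 F).det ≠ 0 := by simpa [G0, det_fin_three] using h2
    refine mul_right_cancel₀ h3 ?_
    simp only [Fintype.card_fin] at this
    linear_combination this
  have a := fun i j => congrFun (congrFun hh i) j
  have a00 := a 0 0; have a02 := a 0 2; have a22 := a 2 2
  simp [G0, mul_apply, Fin.sum_univ_three] at a00 a02 a22
  obtain ⟨l, x, y, hl, e1, e2, e3⟩ := iso_param (x := h.1 0 0) (y := h.1 1 0) (z := h.1 2 0)
    (mul_left_cancel₀ h2 (by linear_combination a00)) (by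
      rintro ⟨e1, e2, e3⟩; rw [e1, e2, e3] at a02; exact hc (by linear_combination a02))
  obtain ⟨m, z, w, hm, f1, f2, f3⟩ := iso_param (x := h.1 0 2) (y := h.1 1 2) (z := h.1 2 2)
    (mul_left_cancel₀ h2 (by linear_combination a22)) (by
      rintro ⟨e1, e2, e3⟩; rw [e1, e2, e3] at a02; exact hc (by linear_combination a02))
  have hD : l * m * (x * w - z * y) ^ 2 = c := by
    rw [e1, e2, e3, f1, f2, f3] at a02
    linear_combination -a02
  have hD0 : x * w - z * y ≠ 0 := fun e => hc (by rw [← hD, e]; simp)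
  obtain ⟨t, ht⟩ : ∃ t : F, m = l * t ^ 2 := ⟨(h : M3 F).det / (c * l * (x * w - z * y)), by
    rw [div_pow, hd]
    field_simp
    linear_combination hD⟩
  have ht0 : t ≠ 0 := fun e => hm (by rw [ht, e]; simp)
  let g : GL (Fin 2) F := GeneralLinearGroup.mkOfDetNeZero !![x, t * z; y, t * w] (by
    rw [det_fin_two_of]
    exact fun e => mul_ne_zero ht0 hD0 (by linear_combination e))
  let k : GL (Fin 3) F := (Units.map sq2 g)⁻¹ * h
  have hk : sq2 !![x, t * z; y, t * w] * (k : M3 F) = h :=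
    congrArg Units.val (mul_inv_cancel_left (Units.map (sq2 (F := F)) g) h)
  have hk0 : ∀ j : Fin 3, (∀ i, h.1 i j = l * (sq2 !![x, t * z; y, t * w]) i j) →
      ∀ i, k.1 i j = l * (1 : M3 F) i j := fun j hj i => by
    have e : (((Units.map sq2 g)⁻¹ : GL (Fin 3) F) : M3 F) * sq2 !![x, t * z; y, t * w] = 1 :=
      (Units.map sq2 g).inv_mul
    rw [← e]
    simp only [k, Units.val_mul, mul_apply, hj, Finset.mul_sum]
    exact Finset.sum_congr rfl fun _ _ => by ring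
  have k0 := hk0 0 fun i => by fin_cases i <;> simp [sq2_apply, e1, e2, e3]
  have k2 := hk0 2 fun i => by fin_cases i <;> simp [sq2_apply, f1, f2, f3, ht] <;> ring
  have hf : (k : M3 F)ᵀ * G0 F * k = l ^ 2 • G0 F := by
    rw [← hk, transpose_mul] at hh
    have := sq2_form !![x, t * z; y, t * w]
    rw [det_fin_two_of] at this
    have e : (x * (t * w) - t * z * y) ^ 2 ≠ 0 :=
      pow_ne_zero _ fun e => mul_ne_zero ht0 hD0 (by linear_combination e)
    refine smul_right_injective _ e ?_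
    simp only
    rw [← smul_mul_assoc, ← mul_smul_comm, ← this, smul_smul,
      show (x * (t * w) - t * z * y) ^ 2 * l ^ 2 = c by rw [← hD, ht]; ring, ← hh]
    simp only [mul_assoc]
  have b := fun i j => congrFun (congrFun hf i) j
  have b01 := b 0 1; have b21 := b 2 1; have b11 := b 1 1
  have k00 := k0 0; have k10 := k0 1; have k20 := k0 2
  have k02 := k2 0; have k12 := k2 1; have k22 := k2 2
  simp at k00 k10 k20 k02 k12 k22
  simp [G0, mul_apply, Fin.sum_univ_three, k00, k10, k20, k02, k12, k22, hl] at b01 b21 b11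
  simp only [b01, b21, mul_zero, neg_zero, zero_add, add_zero, zero_mul] at b11
  obtain ⟨s, hs, e⟩ : ∃ s : F, s * s = 1 ∧ k.1 1 1 = l * s := ⟨k.1 1 1 / l, by
    field_simp
    exact mul_left_cancel₀ h2 (by linear_combination b11), by field_simp⟩
  let d : GL (Fin 2) F := GeneralLinearGroup.mkOfDetNeZero !![1, 0; 0, s] (by
    simpa using left_ne_zero_of_mul_eq_one hs)
  refine ⟨ProjGenLinGroup.mk (g * d), ?_⟩
  change pr (Units.map sq2 (g * d)) = pr h
  have : h = Units.map sq2 g * k := by simp [k]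
  rw [this, map_mul, map_mul, map_mul, mul_right_inj, eq_comm, pr_eq]
  refine ⟨GeneralLinearGroup.scalar _ (Units.mk0 l hl), ⟨Units.mk0 l hl, rfl⟩, Units.ext ?_⟩
  rw [H28.coe_scalar_mul]
  change _ = l • sq2 !![1, 0; 0, s]
  ext i j
  fin_cases i <;> fin_cases j <;> simp [sq2_apply, k00, k10, k20, k02, k12, k22, b01, b21, e, pow_two, hs]

/-- `P` fixes a non-degenerate symmetric form -/
def Orth (P : Subgroup (GL (Fin 3) F)) : Prop :=
  ∃ G : GL (Fin 3) F, (G : M3 F)ᵀ = G ∧ ∀ x ∈ P, (x : M3 F)ᵀ * G * x = G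

theorem orth_of_real (h2 : (2 : F) ≠ 0) {P : Subgroup (GL (Fin 3) F)} (h : spanAlg F P = ⊤)
    (hr : ∀ g ∈ P, trc g⁻¹ = trc g) : Orth P := by
  obtain ⟨ε, f, hf, hx⟩ := exists_hform_of_trace (σ := RingHom.id F) (fun _ => rfl) h
    fun x hx => (hr x hx).symm
  rcases hf.eps_id with rfl | rfl
  · refine ⟨(Matrix.isUnit_iff_isUnit_det _ |>.2 hf.isUnit_det).unit, ?_, fun x hx' => ?_⟩ <;>
      rw [IsUnit.unit_spec]
    · simpa using hf.gram_herm.symm
    · refine frm_inj (σ := RingHom.id F) fun u v => ?_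
      have := frm_mulVec_mulVec (RingHom.id F) (gramMatrix f) x x u v
      rw [← hf.eq_frm, hx x hx'] at this
      rw [← hf.eq_frm, this]; rfl
  · exact absurd (even_card_of_symplectic (hf.symplectic (hf.alt_of_two_ne_zero h2))) (by decide)

theorem concl_orth [Fintype F] {p α : ℕ} [Fact p.Prime] [CharP F p] (hp : p ≠ 2)
    (h2 : (2 : F) ≠ 0) (hF : Fintype.card F = p ^ α) {P : Subgroup (GL (Fin 3) F)} (hP : Core P)
    (hO : Orth P) {X : Subgroup PGL(3, F)} (hX : ∀ g, pr g ∈ X → ∀ x ∈ P, g * x * g⁻¹ ∈ P)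
    (hs : ¬ Group.IsSolvable X) : Concl p α X := by
  obtain ⟨G, hG, hO⟩ := hO
  have hf : HForm (RingHom.id F) 1 (frm (RingHom.id F) (G : M3 F)) :=
    hform_frm (fun _ => rfl) (by simp) (Matrix.isUnits_det_units G) (by simpa using hG.symm)
  obtain ⟨c, T, hT⟩ := H13.cg_odd h2 (M' := GeneralLinearGroup.mkOfDetNeZero (G0 F)
    (by simpa [G0, det_fin_three] using h2)) hG (by
      change (G0 F)ᵀ = G0 F
      ext i j; fin_cases i <;> fin_cases j <;> simp [G0]) (m := 1) (by simp)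
  replace hT : (T : M3 F)ᵀ * G * T = (c : F) • G0 F := hT
  let ψ : PGL(2, F) →* PGL(3, F) := (MulAut.conj (pr T)).toMonoidHom.comp (sqP F)
  have hψ : Function.Injective ψ := (MulAut.conj (pr T)).injective.comp sqP_injective
  have hle : X ≤ ψ.range := fun x hx => by
    obtain ⟨g, rfl⟩ := ProjGenLinGroup.mk_surjective x
    obtain ⟨d, hd⟩ := hf.mem_similarityGroup_of_normalizes hP.span (fun x hx u v => by
      rw [frm_mulVec_mulVec]; exact congrArg (frm _ · u v) (hO x hx)) (hX g hx)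
    have e : (g : M3 F)ᵀ * G * g = (d : F) • (G : M3 F) := frm_inj (σ := RingHom.id F) fun u v => by
      rw [frm_smul, ← hd, frm_mulVec_mulVec]; rfl
    obtain ⟨y, hy⟩ := mem_range_sqP h2 (h := T⁻¹ * g * T) d.ne_zero (by
      refine smul_right_injective _ c.ne_zero ?_
      simp only [Units.val_mul, transpose_mul]
      rw [← smul_mul_assoc, ← mul_smul_comm, ← hT, smul_comm, ← hT, ← smul_mul_assoc,
        ← mul_smul_comm, ← e]
      have e1 : ((T⁻¹ : GL (Fin 3) F) : M3 F)ᵀ * (T : M3 F)ᵀ = 1 := by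
        rw [← transpose_mul, Units.mul_inv, transpose_one]
      simp only [mul_assoc]
      rw [← mul_assoc _ (T : M3 F)ᵀ, e1, one_mul, ← mul_assoc (T : M3 F), Units.mul_inv, one_mul])
    exact ⟨y, by simp [ψ, hy, mul_assoc]⟩
  have e := (X.comap ψ).equivMapOfInjective ψ hψ
  rw [Subgroup.map_comap_eq_self hle] at e
  exact (concl_pgl2 hp hF _ fun c => hs (Group.isSolvable_of_surjective (f := e.toMonoidHom)
    e.surjective)).congr e.symm

end Cfsg.Agent.MiB
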