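import Cfsg.Agent.MiB.B2
import Cfsg.Agent.H18.FinField
import Cfsg.Agent.H18.Linear
import Cfsg.Agent.H28.Unitary

/-! Descent to the field of definition; the linear and the unitary case. -/

set_option autoImplicit false

namespace Cfsg.Agent.MiB

open Matrix Cfsg.Geo Cfsg.Agent.H18 Cfsg.Agent.H18.Mi Module
open scoped MatrixGroups commutatorElement

variable {F : Type*} [Field F] {K : Type*} [Field K]

/-- extension of scalars followed by a change of basis -/
def em (j : K →+* F) (B : GL (Fin 3) F) : GL (Fin 3) K →* GL (Fin 3) F :=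
  (MulAut.conj B).toMonoidHom.comp (GeneralLinearGroup.map j)

theorem em_apply (j : K →+* F) (B : GL (Fin 3) F) (g : GL (Fin 3) K) :
    em j B g = B * GeneralLinearGroup.map j g * B⁻¹ := rfl

theorem coe_em (j : K →+* F) (B : GL (Fin 3) F) (g : GL (Fin 3) K) :
    (em j B g : M3 F) = cj B ((g : M3 K).map j) := rfl

theorem em_inj (j : K →+* F) (B : GL (Fin 3) F) : Function.Injective (em j B) :=
  (MulAut.conj B).injective.comp fun _ _ h =>
    Units.ext (Matrix.map_injective j.injective (congrArg Units.val h))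

theorem det_em (j : K →+* F) (B : GL (Fin 3) F) (g : GL (Fin 3) K) :
    (em j B g : M3 F).det = j (g : M3 K).det := by
  rw [em_apply, Units.val_mul, Units.val_mul, det_units_conj, RingHom.map_det]; rfl

theorem trc_em (j : K →+* F) (B : GL (Fin 3) F) (g : GL (Fin 3) K) :
    trc (em j B g) = j (trc g) := by
  rw [trc, coe_em, trace_cj, trc, AddMonoidHom.map_trace]

theorem em_comp {E : Type*} [Field E] (j : K →+* F) (B : GL (Fin 3) F) (i : E →+* K)
    (C : GL (Fin 3) K) : (em j B).comp (em i C) = em (j.comp i) (B * GeneralLinearGroup.map j C) :=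
  MonoidHom.ext fun g => by
    have : GeneralLinearGroup.map (j.comp i) g =
      GeneralLinearGroup.map j (GeneralLinearGroup.map i g) := Units.ext rfl
    simp only [MonoidHom.comp_apply, em_apply, map_mul, map_inv, this]; group

theorem em_mem_scalars (j : K →+* F) (B : GL (Fin 3) F) {g : GL (Fin 3) K} :
    em j B g ∈ scalars (Fin 3) F ↔ g ∈ scalars (Fin 3) K := by
  rw [em_apply, scalars_normal.mem_comm_iff, inv_mul_cancel_left, H28.mem_scalars_iff_center,
    H28.mem_scalars_iff_center, H28.map_mem_center_iff]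

theorem map_pr_equiv (j : K →+* F) (B : GL (Fin 3) F) (P : Subgroup (GL (Fin 3) K)) :
    Nonempty (PQ P ≃* (P.map (em j B)).map pr) := by
  have h : (scalars (Fin 3) K).subgroupOf P = ((pr.comp (em j B)).comp P.subtype).ker :=
    Subgroup.ext fun x => by
      rw [Subgroup.mem_subgroupOf, ← em_mem_scalars j B, ← pr_eq_one]; rfl
  exact ⟨(QuotientGroup.quotientMulEquivOfEq h).trans ((QuotientGroup.quotientKerEquivRange _).trans
    (MulEquiv.subgroupCongr (by rw [MonoidHom.range_comp, P.range_subtype, Subgroup.map_map])))⟩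

theorem core_em [Finite K] (h2 : (2 : F) ≠ 0) {j : K →+* F} {B : GL (Fin 3) F}
    {P : Subgroup (GL (Fin 3) K)} (h : Core (P.map (em j B))) : Core P := by
  obtain ⟨e⟩ := map_pr_equiv j B P
  obtain ⟨e1⟩ := pq_equiv P
  obtain ⟨e2⟩ := pq_equiv (P.map (em j B))
  let f := (e1.symm.trans e).trans e2.symm
  have := h.simple
  have := f.isSimpleGroup
  refine core_of (fun c => h2 (by rw [← map_ofNat j 2, c, map_zero])) (fun g hg => mem_sl.2
    (j.injective (by rw [← det_em j B, map_one]; exact mem_sl.1 (h.le ⟨g, hg, rfl⟩))))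
    (Subgroup.map_injective (em_inj j B) (by rw [Subgroup.map_commutator, h.perfect]))
    fun c => h.nonab ⟨⟨fun a b => f.symm.injective (by rw [map_mul, map_mul, c.1.1])⟩⟩

theorem exists_min [Finite F] (P : Subgroup (GL (Fin 3) F)) :
    ∃ (K : Type) (_ : Field K) (_ : Fintype K) (j : K →+* F) (B : GL (Fin 3) F)
      (P₀ : Subgroup (GL (Fin 3) K)), P₀.map (em j B) = P ∧
      ∀ E : Subfield K, E ≠ ⊤ → ¬ RealisableOver E (matrixSet P₀) := by
  classical
  have h : ∃ n, ∃ (K : Type) (_ : Field K) (_ : Fintype K) (j : K →+* F) (B : GL (Fin 3) F)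
      (P₀ : Subgroup (GL (Fin 3) K)), P₀.map (em j B) = P ∧ Nat.card K = n := by
    obtain ⟨K, _, _, ⟨e⟩⟩ := exists_field0 F
    exact ⟨_, K, _, inferInstance, e.toRingHom, 1, _,
      Subgroup.map_comap_eq_self fun x hx => by
        obtain ⟨k, hk⟩ := H28.exists_map_eq_of_fixed e.toRingHom (g := x) fun a b => e.surjective _
        exact ⟨k, by rw [em_apply, hk]; group⟩, rfl⟩
  obtain ⟨K, _, _, j, B, P₀, h1, h2⟩ := Nat.find_spec h
  refine ⟨K, _, inferInstance, j, B, P₀, h1, fun E hE ⟨C, hC⟩ => ?_⟩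
  refine Nat.find_min h (m := Nat.card E) ?_ ⟨E, _, Fintype.ofFinite _, j.comp E.subtype,
    B * GeneralLinearGroup.map j C⁻¹, P₀.comap (em E.subtype C⁻¹), ?_, rfl⟩
  · rw [← h2]
    obtain ⟨x, hx⟩ : ∃ x, x ∉ E := by
      by_contra! c
      exact hE (eq_top_iff.2 fun x _ => c x)
    exact Finite.card_subtype_lt (p := (· ∈ E)) hx
  · rw [← em_comp, ← Subgroup.map_map, Subgroup.map_comap_eq_self, h1]
    intro x hx
    obtain ⟨k, hk⟩ := H28.exists_map_eq_of_fixed E.subtype (g := C * x * C⁻¹) fun a b =>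
      ⟨⟨_, hC _ ⟨x, hx, rfl⟩ a b⟩, rfl⟩
    exact ⟨k, by rw [em_apply, hk]; group⟩

theorem exists_em [Finite F] {j : K →+* F} {B : GL (Fin 3) F} {P : Subgroup (GL (Fin 3) K)}
    (h : Core (P.map (em j B))) {g : GL (Fin 3) F}
    (hg : ∀ x ∈ P.map (em j B), g * x * g⁻¹ ∈ P.map (em j B)) :
    ∃ k, pr g = pr (em j B k) ∧ ∀ x ∈ P, k * x * k⁻¹ ∈ P := by
  obtain ⟨z, hz, hk⟩ := mem_subfieldSubgroup_iff.1 (mem_subfieldSubgroup_of_normalizes h.span
    (F₀ := j.fieldRange) (P := B) (by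
      rintro _ ⟨x, -, rfl⟩ a b
      rw [coe_em, cj_inv_cj]
      exact ⟨_, rfl⟩) hg)
  obtain ⟨k, hk⟩ := H28.exists_map_eq_of_fixed j
    (g := GeneralLinearGroup.scalar _ (Units.mk0 z hz) * (B⁻¹ * g * B)) fun a b => by
      rw [H28.coe_scalar_mul]
      exact hk a b
  have hs : GeneralLinearGroup.scalar _ (Units.mk0 z hz) ∈ scalars (Fin 3) F := ⟨_, rfl⟩
  have e : em j B k = GeneralLinearGroup.scalar _ (Units.mk0 z hz) * g := by
    rw [em_apply, hk, ← mul_assoc, ← scalars_comm hs]; group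
  refine ⟨k, by rw [e, map_mul, pr_eq_one.2 hs, one_mul], fun x hx => ?_⟩
  obtain ⟨y, hy, e1⟩ := hg _ ⟨x, hx, rfl⟩
  rwa [show k * x * k⁻¹ = y from em_inj j B (by
    rw [e1, map_mul, map_mul, map_inv, e, scalars_comm hs g, mul_assoc g, scalars_comm hs]; group)]

theorem three_dvd_finrank [Finite F] (j : K →+* F) {d : K} (hd : ∀ e : K, e ^ 3 ≠ d) {c : F}
    (hc : c ^ 3 = j d) : 3 ∣ (letI := j.toAlgebra; finrank K F) := by
  letI := j.toAlgebra
  have : Finite K := Finite.of_injective _ j.injective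
  have := minpoly.eq_of_irreducible_of_monic (X_pow_sub_C_irreducible_of_prime Nat.prime_three hd)
    (x := c) (by simp [hc]; exact sub_self _) (Polynomial.monic_X_pow_sub_C _ (by decide))
  have h := minpoly.degree_dvd (Algebra.IsIntegral.isIntegral (R := K) c)
  rwa [← this, Polynomial.natDegree_X_pow_sub_C] at h

theorem idx3 [Finite F] [Finite K] {j : K →+* F} {B : GL (Fin 3) F}
    {P Y : Subgroup (GL (Fin 3) K)} (hP : P ≤ specialLinear (Fin 3) K)
    (hY : ∀ g ∈ Y, ∀ e : K, e ^ 3 = (g : M3 K).det → ∃ z ∈ scalars (Fin 3) K, ∃ s ∈ P, g = z * s)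
    {X : Subgroup PGL(3, F)} (h1 : X ≤ PS F) (h2 : X ≤ (Y.map (em j B)).map pr)
    (h3 : (P.map (em j B)).map pr ≤ X) : (P.map (em j B)).map pr = X ∨
      ((((P.map (em j B)).map pr).subgroupOf X).index = 3 ∧
        3 ∣ (letI := j.toAlgebra; finrank K F) ∧ ∃ g ∈ Y, ∀ e : K, e ^ 3 ≠ (g : M3 K).det) := by
  rw [Subgroup.map_map] at h2 h3 ⊢
  set ψ := pr.comp (em j B)
  refine (eq_or_ne _ _).imp_right fun hne => ?_
  let δ : GL (Fin 3) K →* Kˣ ⧸ (powMonoidHom 3 : Kˣ →* Kˣ).range :=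
    (QuotientGroup.mk' _).comp GeneralLinearGroup.det
  have hδ : ∀ g, g ∈ δ.ker ↔ ∃ e : K, e ^ 3 = (g : M3 K).det := fun g => by
    refine (QuotientGroup.eq_one_iff _).trans ⟨fun ⟨u, hu⟩ => ⟨u, congrArg Units.val hu⟩,
      fun ⟨e, he⟩ => ⟨Units.mk0 e fun c => (GeneralLinearGroup.det g).ne_zero ?_, Units.ext he⟩⟩
    rw [GeneralLinearGroup.val_det_apply, ← he, c]; simp
  have hk : ∀ g ∈ Y, g ∈ δ.ker ↔ ψ g ∈ P.map ψ := fun g hg => by
    rw [hδ]
    refine ⟨fun ⟨e, he⟩ => ?_, fun ⟨s, hs, e⟩ => ?_⟩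
    · obtain ⟨z, hz, s, hs, rfl⟩ := hY g hg e he
      exact ⟨s, hs, by simp [ψ, pr_eq_one.2 ((em_mem_scalars j B).2 hz)]⟩
    · obtain ⟨c, hc⟩ := (mem_scalars_iff _).1 ((em_mem_scalars j B (g := g * s⁻¹)).1
        (pr_eq_one.1 (by change ψ _ = 1; rw [map_mul, map_inv, e, mul_inv_cancel])))
      refine ⟨c, ?_⟩
      have := congrArg det hc
      rw [Units.val_mul, det_mul, mem_sl.1 (inv_mem (hP hs))] at this
      simpa using this.symm
  obtain ⟨x, hx, hx'⟩ := SetLike.exists_of_lt (lt_of_le_of_ne h3 hne)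
  obtain ⟨g, hg, rfl⟩ := h2 hx
  have hn : ∀ e : K, e ^ 3 ≠ (g : M3 K).det := fun e he => hx' ((hk g hg).1 ((hδ g).2 ⟨e, he⟩))
  refine ⟨?_, ?_, g, hg, hn⟩
  · refine (Nat.prime_three.eq_one_or_self_of_dvd _ ?_).resolve_left fun c =>
      hx' (Subgroup.subgroupOf_eq_top.1 (Subgroup.index_eq_one.1 c) hx)
    have e1 : (X.comap ψ ⊓ Y).map ψ = X := le_antisymm ((Subgroup.map_mono inf_le_left).trans
      (Subgroup.map_comap_le _ _)) fun x hx => by
        obtain ⟨g, hg, rfl⟩ := h2 hx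
        exact ⟨g, ⟨hx, hg⟩, rfl⟩
    have e2 : ((P.map ψ).comap ψ).subgroupOf (X.comap ψ ⊓ Y) = δ.ker.subgroupOf (X.comap ψ ⊓ Y) :=
      Subgroup.ext fun g => (hk g g.2.2).symm
    change (P.map ψ).relIndex X ∣ 3
    rw [← e1, ← Subgroup.relIndex_comap, Subgroup.relIndex, e2]
    refine (Subgroup.relIndex_dvd_index_of_normal _ _).trans ?_
    rw [Subgroup.index_ker]
    refine (Subgroup.card_subgroup_dvd_card _).trans ?_
    rw [← Subgroup.index, IsCyclic.index_powMonoidHom_range]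
    exact Nat.gcd_dvd_right _ _
  · obtain ⟨s, hs, e⟩ := h1 hx
    obtain ⟨z, hz, e⟩ := pr_eq.1 e.symm
    obtain ⟨c, hc⟩ := (mem_scalars_iff _).1 hz
    refine three_dvd_finrank j hn (c := c) ?_
    rw [← det_em j B, e, Units.val_mul, det_mul, mem_sl.1 hs, hc]; simp

theorem exists_cube {d : K} {n : ℕ} (h : d ^ n = 1) (h3 : ¬ 3 ∣ n) :
    ∃ e : K, e ^ 3 = d ∧ e ^ n = 1 := by
  obtain h1 | h1 : n % 3 = 1 ∨ n % 3 = 2 := by omega
  · refine ⟨d ^ (2 * (n / 3) + 1), ?_, by rw [← pow_mul, mul_comm, pow_mul, h, one_pow]⟩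
    rw [← pow_mul, show (2 * (n / 3) + 1) * 3 = n * 2 + 1 by omega, pow_succ, pow_mul, h]; simp
  · refine ⟨d ^ (n / 3 + 1), ?_, by rw [← pow_mul, mul_comm, pow_mul, h, one_pow]⟩
    rw [← pow_mul, show (n / 3 + 1) * 3 = n + 1 by omega, pow_succ, h, one_mul]

theorem quot_center_equiv [Finite F] {Y : Type*} [Group Y] {φ : Y →* GL (Fin 3) F}
    {P : Subgroup (GL (Fin 3) F)} (hr : φ.range = P) (hφ : Function.Injective φ) (h : Core P) :
    Nonempty (P.map pr ≃* Y ⧸ Subgroup.center Y) := by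
  subst hr
  have h : Subgroup.center Y = (pr.comp φ).ker := Subgroup.ext fun x => by
    refine Iff.trans ⟨fun c => mem_scalars_of_commute h.span ?_, fun c =>
      Subgroup.mem_center_iff.2 fun y => hφ ?_⟩ pr_eq_one.symm
    · rintro _ ⟨y, rfl⟩
      rw [← map_mul, ← map_mul, Subgroup.mem_center_iff.1 c]
    · rw [map_mul, map_mul, scalars_comm c]
  exact ⟨((QuotientGroup.quotientMulEquivOfEq h).trans ((QuotientGroup.quotientKerEquivRange _).trans
    (MulEquiv.subgroupCongr (by rw [MonoidHom.range_comp])))).symm⟩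

theorem range_toGL : (SpecialLinearGroup.toGL : SL(3, K) →* _).range = specialLinear (Fin 3) K :=
  Subgroup.ext fun g => ⟨by rintro ⟨s, rfl⟩; exact mem_sl.2 s.2, fun h => ⟨⟨g, mem_sl.1 h⟩,
    Units.ext rfl⟩⟩

theorem split_scalar {g : GL (Fin 3) K} {e : K} (he : e ^ 3 = (g : M3 K).det) :
    ∃ (u : Kˣ) (s : GL (Fin 3) K), (u : K) = e ∧ s ∈ specialLinear (Fin 3) K ∧
      g = GeneralLinearGroup.scalar _ u * s ∧ (s : M3 K) = e⁻¹ • (g : M3 K) := by
  have h0 : e ≠ 0 := fun c => (GeneralLinearGroup.det g).ne_zero (by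
    rw [GeneralLinearGroup.val_det_apply, ← he, c]; simp)
  refine ⟨Units.mk0 e h0, GeneralLinearGroup.scalar _ (Units.mk0 e h0)⁻¹ * g, rfl, mem_sl.2 ?_,
    by simp, by rw [H28.coe_scalar_mul]; simp⟩
  rw [H28.coe_scalar_mul, det_smul, ← he]; simp [h0]

theorem concl_sl [Fintype F] {K : Type} [Field K] [Fintype K] {p α : ℕ} (hp : p.Prime)
    (hF : Fintype.card F = p ^ α) {j : K →+* F} {B : GL (Fin 3) F}
    (h : Core ((specialLinear (Fin 3) K).map (em j B))) {X : Subgroup PGL(3, F)} (h1 : X ≤ PS F)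
    (h2 : ∀ g, pr g ∈ X → ∀ x ∈ (specialLinear (Fin 3) K).map (em j B),
      g * x * g⁻¹ ∈ (specialLinear (Fin 3) K).map (em j B))
    (h3 : ((specialLinear (Fin 3) K).map (em j B)).map pr ≤ X) : Concl p α X := by
  obtain ⟨β, hβ, hα⟩ := card_of_hom j hp hF
  have hr : ((em j B).comp SpecialLinearGroup.toGL).range = (specialLinear (Fin 3) K).map (em j B) := by
    rw [MonoidHom.range_comp, range_toGL]
  obtain ⟨e⟩ := quot_center_equiv hr ((em_inj j B).comp SpecialLinearGroup.toGL_injective) h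
  rcases idx3 (Y := ⊤) le_rfl (fun g _ e he => by
      obtain ⟨u, s, -, hs, e, -⟩ := split_scalar he
      exact ⟨_, ⟨u, rfl⟩, s, hs, e⟩) h1 (fun x hx => by
      obtain ⟨g, rfl⟩ := ProjGenLinGroup.mk_surjective x
      obtain ⟨k, hk, -⟩ := exists_em h (h2 g hx)
      exact ⟨_, ⟨k, trivial, rfl⟩, hk.symm⟩) h3 with c | ⟨c1, ⟨m, c2⟩, g, -, c3⟩
  · exact .inl ⟨K, _, _, β, hβ, ⟨_, hα.symm⟩, ⟨c ▸ e⟩⟩
  · refine .inr (.inr (.inl ⟨K, _, _, β, hβ, ?_, ⟨m, by rw [← hα, c2]; ring⟩, _, c1,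
      ⟨(Subgroup.subgroupOfEquivOfLe h3).trans e⟩⟩))
    by_contra c
    obtain ⟨e, he, -⟩ := exists_cube (FiniteField.pow_card_sub_one_eq_one _
      (GeneralLinearGroup.det g).ne_zero) (hβ ▸ c)
    exact c3 e he

theorem card_sq_of_invol [Fintype K] {σ : K ≃+* K} (hσ : orderOf σ = 2) {p n : ℕ} (hp : p.Prime)
    (hK : Fintype.card K = p ^ n) : 2 ∣ n := by
  have : Fact p.Prime := ⟨hp⟩
  have : CharP K p := charP_of_card_eq_prime_pow hK
  letI := ZMod.algebra K p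
  let τ : K ≃ₐ[ZMod p] K := { σ with
    commutes' := fun x => RingHom.congr_fun (Subsingleton.elim
      (σ.toRingHom.comp (algebraMap (ZMod p) K)) (algebraMap (ZMod p) K)) x }
  have h1 : orderOf τ = 2 := by
    rw [orderOf_eq_prime_iff] at hσ ⊢
    exact ⟨AlgEquiv.ext fun x => RingEquiv.congr_fun hσ.1 x,
      fun c => hσ.2 (RingEquiv.ext fun x => AlgEquiv.congr_fun c x)⟩
  have h2 := orderOf_dvd_natCard τ
  rw [h1, IsGalois.card_aut_eq_finrank] at h2
  have h3 := Module.card_eq_pow_finrank (K := ZMod p) (V := K)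
  rw [hK, ZMod.card] at h3
  rwa [Nat.pow_right_injective hp.two_le h3]

theorem concl_su0 [Fintype F] {K : Type} [Field K] [Fintype K] {p α β : ℕ} (hp : p.Prime)
    (hF : Fintype.card F = p ^ α) (hK : Fintype.card K = p ^ (2 * β)) {j : K →+* F}
    {B : GL (Fin 3) F} {P : Subgroup (GL (Fin 3) K)}
    (hP : P = GU 3 K (p ^ β) ⊓ specialLinear (Fin 3) K) (h2 : (2 : F) ≠ 0)
    (h : Core (P.map (em j B))) {X : Subgroup PGL(3, F)} (h1 : X ≤ PS F)
    (hX : ∀ g, pr g ∈ X → ∀ x ∈ P.map (em j B), g * x * g⁻¹ ∈ P.map (em j B))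
    (h3 : (P.map (em j B)).map pr ≤ X) : Concl p α X := by
  obtain ⟨γ, hγ, hα⟩ := card_of_hom j hp hF
  obtain rfl : γ = 2 * β := Nat.pow_right_injective hp.two_le (hγ.symm.trans hK)
  have hK' : Fintype.card K = (p ^ β) ^ 2 := by rw [hK, ← pow_mul, mul_comm]
  obtain ⟨σ, hσ, hσ2⟩ := H28.exists_frob_two hK'
  have hr : ((em j B).comp (SpecialLinearGroup.toGL.comp (SU 3 K (p ^ β)).subtype)).range =
      P.map (em j B) := by
    rw [MonoidHom.range_comp, MonoidHom.range_comp, Subgroup.range_subtype, hP]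
    congr 1
    refine Subgroup.ext fun g => ⟨?_, fun h => ⟨⟨g, mem_sl.1 h.2⟩, h.1, Units.ext rfl⟩⟩
    rintro ⟨s, hs, rfl⟩
    exact ⟨hs, mem_sl.2 s.2⟩
  obtain ⟨e⟩ := quot_center_equiv hr ((em_inj j B).comp (SpecialLinearGroup.toGL_injective.comp
    Subtype.val_injective)) h
  have hd : ∀ g ∈ GU 3 K (p ^ β), (g : M3 K).det ^ (p ^ β + 1) = 1 := fun g hg => by
    have := congrArg det ((H28.mem_GU_iff hσ).1 hg)
    rwa [det_mul, H28.det_cT, hσ, det_one, ← pow_succ] at this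
  have hq : 0 < p ^ β := pow_pos hp.pos _
  have hf : HForm (σ : K →+* K) 1 (frm (σ : K →+* K) (1 : M3 K)) :=
    hform_frm (H28.apply_apply_of_orderOf_two hσ2) (by simp) (by simp) (by simp)
  have hG : ∀ (g : GL (Fin 3) K) (c : K), (∀ u v, frm (σ : K →+* K) (1 : M3 K) (g.1 *ᵥ u) (g.1 *ᵥ v)
      = c * frm (σ : K →+* K) (1 : M3 K) u v) ↔ H28.cT σ g.1 * g.1 = c • 1 := fun g c => by
    simp only [frm_mulVec_mulVec, ← frm_smul, mul_one]
    refine ⟨fun h => ?_, fun h u v => ?_⟩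
    · have := congrArg transpose (frm_inj h)
      simpa [H28.cT] using this
    · have := congrArg transpose h
      simp only [H28.cT, transpose_mul, transpose_transpose, transpose_smul, transpose_one] at this
      exact congrArg (frm _ · u v) this
  rcases idx3 (Y := GU 3 K (p ^ β)) (hP ▸ inf_le_right) (fun g hg e he => by
      obtain ⟨e, he, he'⟩ : ∃ e : K, e ^ 3 = (g : M3 K).det ∧ e ^ (p ^ β + 1) = 1 := by
        by_cases c : 3 ∣ p ^ β + 1
        · refine ⟨e, he, ?_⟩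
          have h0 : e ≠ 0 := fun c => (GeneralLinearGroup.det g).ne_zero (by
            rw [GeneralLinearGroup.val_det_apply, ← he, c]; simp)
          have e1 : (e ^ (p ^ β + 1)) ^ 3 = 1 := by rw [← pow_mul, mul_comm, pow_mul, he, hd g hg]
          have e2 : (e ^ (p ^ β + 1)) ^ (p ^ β - 1) = 1 := by
            rw [← pow_mul, ← Nat.sq_sub_sq, one_pow, ← hK', FiniteField.pow_card_sub_one_eq_one _ h0]
          obtain ⟨m, hm⟩ : ∃ m, p ^ β - 1 = 3 * m + 1 := ⟨(p ^ β - 1) / 3, by omega⟩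
          rwa [hm, pow_succ, pow_mul, e1, one_pow, one_mul] at e2
        · exact exists_cube (hd g hg) c
      obtain ⟨u, s, rfl, hs, e, e'⟩ := split_scalar he
      refine ⟨_, ⟨u, rfl⟩, s, hP ▸ ⟨(H28.mem_GU_iff hσ).2 ?_, hs⟩, e⟩
      rw [e', H28.cT_smul, smul_mul_smul_comm, (H28.mem_GU_iff hσ).1 hg, hσ, ← pow_succ, inv_pow,
        he', inv_one, one_smul]) h1 (fun x hx => by
      obtain ⟨g, rfl⟩ := ProjGenLinGroup.mk_surjective x
      obtain ⟨k, hk, hn⟩ := exists_em h (hX g hx)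
      obtain ⟨c, hc⟩ := hf.mem_similarityGroup_of_normalizes (core_em h2 h).span (fun x hx => by
        simpa using (hG x 1).2 (by simpa using (H28.mem_GU_iff hσ).1 (hP.le hx).1)) hn
      rw [hG] at hc
      obtain ⟨z, k', h1, h2⟩ := H28.exists_uniT_fixed hσ2 (g := k) (u := c) (Units.ext (by
        have := congrArg (H28.cT σ (k⁻¹).1 * ·) hc
        rw [← mul_assoc, ← H28.cT_mul, Units.mul_inv] at this
        rw [H28.coe_scalar_mul, H28.coe_uniT]
        simpa [H28.cT] using this))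
      exact ⟨_, ⟨k', (H28.mem_GU_iff_uniT hσ).2 h1, rfl⟩, by
        rw [hk, h2, map_mul, map_mul, pr_eq_one.2 ((em_mem_scalars j B
          (g := GeneralLinearGroup.scalar _ z)).2 ⟨z, rfl⟩), one_mul]⟩)
      h3 with c | ⟨c1, ⟨m, c2⟩, g, hg, c3⟩
  · exact .inr (.inl ⟨K, _, _, β, hK, ⟨_, hα.symm⟩, ⟨c ▸ e⟩⟩)
  · refine .inr (.inr (.inr (.inl ⟨K, _, _, β, hK, ?_, ⟨m, by rw [← hα, c2]; ring⟩, _, c1,
      ⟨(Subgroup.subgroupOfEquivOfLe h3).trans e⟩⟩)))
    by_contra c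
    obtain ⟨e, he, -⟩ := exists_cube (hd g hg) c
    exact c3 e he

theorem concl_su [Fintype F] {K : Type} [Field K] [Fintype K] {p α : ℕ} (hp : p.Prime)
    (hF : Fintype.card F = p ^ α) {j : K →+* F} {B : GL (Fin 3) F} {P : Subgroup (GL (Fin 3) K)}
    {σ : K ≃+* K} {f : (Fin 3 → K) → (Fin 3 → K) → K} (hf : IsUnitaryForm σ f)
    (hP : FixesForm (matrixSet P) f) (hP' : ∀ g ∈ specialLinear (Fin 3) K,
      (∀ u v, f (g.1 *ᵥ u) (g.1 *ᵥ v) = f u v) → g ∈ P) (h2 : (2 : F) ≠ 0)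
    (h : Core (P.map (em j B))) {X : Subgroup PGL(3, F)} (h1 : X ≤ PS F)
    (hX : ∀ g, pr g ∈ X → ∀ x ∈ P.map (em j B), g * x * g⁻¹ ∈ P.map (em j B))
    (h3 : (P.map (em j B)).map pr ≤ X) : Concl p α X := by
  obtain ⟨γ, hγ, -⟩ := card_of_hom j hp hF
  have hσ2 : orderOf σ = 2 := orderOf_eq_prime (RingEquiv.ext hf.involutive) hf.ne_refl
  obtain ⟨β, rfl⟩ := card_sq_of_invol hσ2 hp hγ
  have hK' : Fintype.card K = (p ^ β) ^ 2 := by rw [hγ, ← pow_mul, mul_comm]
  have hσ := H28.apply_eq_pow_of_orderOf_two hK' hσ2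
  have hh := hform_of_unitary hf
  obtain ⟨T, hT⟩ := H28.exists_cT_mul_herm hσ2
    (Matrix.isUnit_iff_isUnit_det _ |>.2 hh.isUnit_det).unit (by
      rw [IsUnit.unit_spec]
      simpa [H28.cT] using hh.gram_herm.symm)
  rw [IsUnit.unit_spec] at hT
  let U : GL (Fin 3) K := GeneralLinearGroup.map (σ : K →+* K) T
  have hU : ∀ u v, f (U.1 *ᵥ u) (U.1 *ᵥ v) = hermForm 3 K (p ^ β) u v := fun u v => by
    have : (U.1).map (σ : K →+* K) = T.1 := by ext a b; exact hf.involutive _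
    rw [hh.eq_frm, frm_mulVec_mulVec, this, H28.hermForm_eq hσ, dotProduct_comm]
    exact (congrArg (frm _ · u v) hT).trans (by simp [frm])
  have e : (P.comap (MulAut.conj U).toMonoidHom).map (em j (B * GeneralLinearGroup.map j U)) =
      P.map (em j B) := by
    have : em j (B * GeneralLinearGroup.map j U) = (em j B).comp (MulAut.conj U).toMonoidHom :=
      MonoidHom.ext fun g => by simp [em_apply, mul_assoc]
    rw [this, ← Subgroup.map_map, Subgroup.map_comap_eq_self_of_surjective (MulAut.conj U).surjective]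
  rw [← e] at h hX h3
  refine concl_su0 hp hF hγ (Subgroup.ext fun g => ?_) h2 h h1 hX h3
  have key : (∀ u v, f ((U * g * U⁻¹).1 *ᵥ u) ((U * g * U⁻¹).1 *ᵥ v) = f u v) ↔
      g ∈ GU 3 K (p ^ β) := by
    refine ⟨fun h u v => ?_, fun h u v => ?_⟩
    · have := h (U.1 *ᵥ u) (U.1 *ᵥ v)
      simp only [Units.val_mul, ← mulVec_mulVec, inv_mulVec_mulVec, hU] at this
      exact this
    · simp only [Units.val_mul, ← mulVec_mulVec, hU]
      refine (h _ _).trans ?_
      rw [← hU, mulVec_inv_mulVec, mulVec_inv_mulVec]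
  refine ⟨fun hg => ⟨key.1 (hP _ ⟨_, hg, rfl⟩), (core_em h2 h).le hg⟩, fun hg =>
    hP' _ ((MonoidHom.normal_ker _).conj_mem g hg.2 U) (key.2 hg.1)⟩

end Cfsg.Agent.MiB
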