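import Cfsg.Agent.MiB.B3
import Cfsg.Agent.S0721
import Cfsg.Agent.S0495

/-! Bloom's theorem from the determination of the quasisimple subgroups. -/

set_option autoImplicit false

namespace Cfsg.Agent.MiB

open Matrix Cfsg.Geo Cfsg.Agent.H18 Cfsg.Agent.H18.Mi Module
open scoped MatrixGroups commutatorElement

variable {F : Type*} [Field F]

theorem exists_socle [Finite F] (h2 : (2 : F) ≠ 0) {X : Subgroup PGL(3, F)} (hX : X ≤ PS F)
    (h0 : X ≠ ⊥) (hN : ∀ N : Subgroup X, N.Normal → IsMulCommutative N →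
      (∃ r : ℕ, r.Prime ∧ ∀ x ∈ N, x ^ r = 1) → N = ⊥) :
    ∃ P : Subgroup (GL (Fin 3) F), Core P ∧ P.map pr ≤ X ∧
      ∀ g, pr g ∈ X → ∀ x ∈ P, g * x * g⁻¹ ∈ P := by
  have := (Subgroup.nontrivial_iff_ne_bot X).2 h0
  obtain ⟨N, ⟨hN1, hN0⟩, hmin⟩ := wellFounded_lt.has_min {N : Subgroup X | N.Normal ∧ N ≠ ⊥}
    ⟨⊤, inferInstance, top_ne_bot⟩
  obtain ⟨T, _, m, hT, hm, ⟨e⟩⟩ := S0721.result N hN0 fun M hM hle => by
    by_contra! c
    exact hmin M ⟨hM, c.1⟩ (lt_of_le_of_ne hle c.2)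
  have hc : ¬ IsMulCommutative T := fun c => by
    have : Finite T := Finite.of_injective (fun t => e.symm fun _ => t) fun a b h =>
      congrFun (e.symm.injective h) ⟨0, hm⟩
    refine hN0 (hN N hN1 ⟨⟨fun a b => e.injective (by
      rw [map_mul, map_mul]; exact funext fun i => c.1.1 _ _)⟩⟩
      ⟨Nat.card T, by letI : CommGroup T := {‹Group T› with mul_comm := c.1.1}
                      exact IsSimpleGroup.prime_card, fun x hx => ?_⟩)
    have : (⟨x, hx⟩ : N) ^ Nat.card T = 1 := e.injective (by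
      rw [map_pow, map_one]; exact funext fun i => pow_card_eq_one')
    exact congrArg Subtype.val this
  let ι : (Fin m → T) →* PGL(3, F) := X.subtype.comp (N.subtype.comp e.symm.toMonoidHom)
  have hι : Function.Injective ι :=
    Subtype.val_injective.comp (Subtype.val_injective.comp e.symm.injective)
  let i : Fin m := ⟨0, hm⟩
  let φ : T →* PGL(3, F) := ι.comp (MonoidHom.mulSingle (fun _ => T) i)
  have hφ : Function.Injective φ := hι.comp (Pi.mulSingle_injective (M := fun _ => T) i)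
  let f := MonoidHom.ofInjective hφ
  have := f.symm.isSimpleGroup
  have hle : φ.range ≤ X := by rintro _ ⟨t, rfl⟩; exact SetLike.coe_mem _
  obtain ⟨P, h1, h3, h4⟩ := exists_core h2 (hle.trans hX) fun c => hc ⟨⟨fun a b => f.injective (by
    rw [map_mul, map_mul, c.1.1])⟩⟩
  have hu : ∀ j, j = i := fun j => by
    by_contra c
    obtain ⟨t, ht⟩ := exists_ne (1 : T)
    have := eq_one_of_comm h1 (c := ι (Pi.mulSingle j t)) (by
      rw [h3]
      rintro _ ⟨s, rfl⟩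
      exact ((Pi.mulSingle_commute (f := fun _ => T) c t s).map ι).eq)
    exact ht (by simpa using congrFun (hι (this.trans (map_one ι).symm)) j)
  refine ⟨P, h1, h3 ▸ hle, fun g hg => h4 g ?_⟩
  rintro _ ⟨t, rfl⟩
  let y : N := ⟨_, hN1.conj_mem _ (e.symm (Pi.mulSingle i t)).2 ⟨_, hg⟩⟩
  refine ⟨e y i, ?_⟩
  have : Pi.mulSingle i (e y i) = e y := funext fun j => by rw [hu j, Pi.mulSingle_eq_same]
  change ι (Pi.mulSingle i (e y i)) = _
  rw [this]
  simp only [ι, MonoidHom.comp_apply, MulEquiv.coe_toMonoidHom, MulEquiv.symm_apply_apply]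
  rfl

theorem main [Fintype F] {p α : ℕ} [Fact p.Prime] (hp : p ≠ 2) (hF : Fintype.card F = p ^ α)
    (hM : ∀ (K : Type) [Field K] [Fintype K] (P : Subgroup (GL (Fin 3) K)), Core P → MConcl P)
    (l32 : ∀ P H : Subgroup (GL (Fin 3) F), Core P → H ≤ specialLinear (Fin 3) F →
      (∀ g ∈ H, ∀ x ∈ P, g * x * g⁻¹ ∈ P) → (PQ P ≃* PSL(3, ZMod 2)) →
      (∀ g ∈ P, trc g⁻¹ = trc g) ∨ (Fintype.card F ^ 3 % 7 = 1 ∧ H ≤ P ⊔ scalars (Fin 3) F))
    (a6 : ∀ P H : Subgroup (GL (Fin 3) F), Core P → H ≤ specialLinear (Fin 3) F →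
      (∀ g ∈ H, ∀ x ∈ P, g * x * g⁻¹ ∈ P) → (PQ P ≃* alternatingGroup (Fin 6)) →
      (∀ g ∈ P, trc g⁻¹ = trc g) ∨ (Fintype.card F % 3 = 1 ∧ (H ≤ P ⊔ scalars (Fin 3) F ∨
        ((5 : F) = 0 ∧ (P ⊔ scalars (Fin 3) F).relIndex (H ⊔ P ⊔ scalars (Fin 3) F) = 2)) ∧
        ((5 : F) ≠ 0 → Fintype.card F % 5 = 1 ∨ Fintype.card F % 5 = 4)))
    (a7 : ∀ P H : Subgroup (GL (Fin 3) F), Core P → H ≤ specialLinear (Fin 3) F →
      (∀ g ∈ H, ∀ x ∈ P, g * x * g⁻¹ ∈ P) → (5 : F) = 0 → (PQ P ≃* alternatingGroup (Fin 7)) →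
      Fintype.card F % 3 = 1 ∧ H ≤ P ⊔ scalars (Fin 3) F)
    {X : Subgroup PGL(3, F)} (hX : X ≤ PS F) (h0 : X ≠ ⊥)
    (hN : ∀ N : Subgroup X, N.Normal → IsMulCommutative N →
      (∃ r : ℕ, r.Prime ∧ ∀ x ∈ N, x ^ r = 1) → N = ⊥) : Concl p α X := by
  have hpp : p.Prime := Fact.out
  have : CharP F p := charP_of_card_eq_prime_pow hF
  have ho : Odd (p ^ α) := (hpp.odd_of_ne_two hp).pow
  have h2 : (2 : F) ≠ 0 := two_ne_zero_iff_odd.2 (hF ▸ ho)
  obtain ⟨P, hP, h3, hn⟩ := exists_socle h2 hX h0 hN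
  obtain ⟨eP⟩ := pq_equiv P
  have hs : ¬ Group.IsSolvable X := fun c => by
    have := hP.simple
    have := Group.isSolvable_of_isSolvable_injective (f := (Subgroup.inclusion h3).comp eP.toMonoidHom)
      ((Subgroup.inclusion_injective h3).comp eP.injective)
    exact hP.nonab ⟨⟨IsSimpleGroup.comm_iff_isSolvable.2 this⟩⟩
  have real : (∀ g ∈ P, trc g⁻¹ = trc g) → Concl p α X := fun h =>
    concl_orth hp h2 hF hP (orth_of_real h2 hP.span h) hn hs
  let H : Subgroup (GL (Fin 3) F) := X.comap pr ⊓ specialLinear (Fin 3) F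
  have hH : H.map pr = X := le_antisymm ((Subgroup.map_mono inf_le_left).trans
    (Subgroup.map_comap_le _ _)) fun x hx => by
      obtain ⟨g, hg, rfl⟩ := hX hx
      exact ⟨g, ⟨hx, hg⟩, rfl⟩
  have hZ : (scalars (Fin 3) F).map pr = ⊥ :=
    (Subgroup.map_eq_bot_iff _).2 fun x hx => pr_eq_one.2 hx
  have hk : scalars (Fin 3) F = pr.ker := Subgroup.ext fun _ => pr_eq_one.symm
  have eq : H ≤ P ⊔ scalars (Fin 3) F → Nonempty (X ≃* PQ P) := fun h => by
    have := Subgroup.map_mono (f := pr) h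
    rw [hH, Subgroup.map_sup, hZ, sup_bot_eq] at this
    exact ⟨(MulEquiv.subgroupCongr (le_antisymm this h3)).trans eP.symm⟩
  have five : (5 : F) = 0 → Fintype.card F % 3 = 1 → p = 5 ∧ Even α := fun h h' => by
    obtain rfl : p = 5 := (Nat.prime_dvd_prime_iff_eq hpp Nat.prime_five).1
      ((CharP.cast_eq_zero_iff F p 5).1 (by exact_mod_cast h))
    refine ⟨rfl, ?_⟩
    by_contra c
    obtain ⟨k, rfl⟩ := Nat.not_even_iff_odd.1 c
    rw [hF, pow_succ, pow_mul, Nat.mul_mod, Nat.pow_mod] at h'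
    simp at h'
  obtain ⟨K, _, _, j, B, P₀, rfl, hmin⟩ := exists_min P
  obtain ⟨e0⟩ := map_pr_equiv j B P₀
  let e1 := eP.trans e0.symm
  rcases hM K P₀ (core_em h2 hP) with h | ⟨E, h, h'⟩ | ⟨σ, f, hf, h, h'⟩ | h | ⟨⟨e⟩⟩ | ⟨⟨e⟩⟩ |
    ⟨h5, ⟨e⟩⟩
  · obtain rfl : P₀ = specialLinear (Fin 3) K := le_antisymm (core_em h2 hP).le h
    exact concl_sl hpp hF hP hX hn h3
  · exact absurd h' (hmin E h)
  · exact concl_su hpp hF hf h h' h2 hP hX hn h3
  · refine real ?_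
    rintro _ ⟨g, hg, rfl⟩
    rw [← map_inv, trc_em, trc_em, h g hg]
  · refine (l32 _ H hP inf_le_right (fun g hg => hn g hg.1) (e1.trans e)).elim real fun ⟨c1, c2⟩ => ?_
    obtain ⟨f⟩ := eq c2
    have := hP.simple
    have := f.isSimpleGroup
    have : Fact (Nat.Prime 7) := ⟨by decide⟩
    refine .inr (.inr (.inr (.inr (.inr (.inr (.inl ⟨hF ▸ c1, ZMod 7, _, inferInstance, by simp,
      S0495.result ?_ (by simp)⟩))))))
    have := H12.card_PSL_fin (F := ZMod 2) (q := 2) (by simp) 3 (by decide)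
    rw [Nat.card_congr ((f.trans e1).trans e).toEquiv]
    simpa [Fin.prod_univ_three] using this
  · refine (a6 _ H hP inf_le_right (fun g hg => hn g hg.1) (e1.trans e)).elim real
      fun ⟨c1, c2, c3⟩ => ?_
    by_cases h5 : (5 : F) = 0
    · refine .inr (.inr (.inr (.inr (.inr (.inr (.inr (.inl ⟨(five h5 c1).1, (five h5 c1).2,
        c2.imp (fun c => (eq c).elim fun f => ⟨(f.trans e1).trans e⟩) fun c => .inr
        ⟨_, ?_, ⟨(((Subgroup.subgroupOfEquivOfLe h3).trans eP.symm).trans e1).trans e⟩⟩⟩)))))))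
      have := c.2
      rwa [hk, ← Subgroup.comap_map_eq, Subgroup.relIndex_comap, ← hk, Subgroup.map_sup,
        Subgroup.map_sup, hZ, hH, sup_bot_eq, sup_eq_left.2 h3] at this
    · obtain ⟨f⟩ := eq (c2.resolve_right fun c => h5 c.1)
      refine .inr (.inr (.inr (.inr (.inr (.inr (.inr (.inr ⟨?_, ⟨(f.trans e1).trans e⟩⟩)))))))
      have := c3 h5
      rw [Nat.odd_iff] at ho
      rw [hF] at this c1
      omega
  · replace h5 : (5 : F) = 0 := by rw [← map_ofNat j 5, h5, map_zero]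
    obtain ⟨c1, c2⟩ := a7 _ H hP inf_le_right (fun g hg => hn g hg.1) h5 (e1.trans e)
    obtain ⟨f⟩ := eq c2
    exact .inr (.inr (.inr (.inr (.inr (.inr (.inr (.inl ⟨(five h5 c1).1, (five h5 c1).2,
      .inr (.inl ⟨(f.trans e1).trans e⟩)⟩)))))))

theorem concl_of [Fintype F] {p α : ℕ}
    (h : ∀ {X : Subgroup PGL(3, F)}, X ≤ PS F → X ≠ ⊥ → (∀ N : Subgroup X, N.Normal →
      IsMulCommutative N → (∃ r : ℕ, r.Prime ∧ ∀ x ∈ N, x ^ r = 1) → N = ⊥) → Concl p α X)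
    (H : Subgroup PSL(3, F)) (hH : H ≠ ⊥) (hN : ∀ N : Subgroup H, N.Normal →
      IsMulCommutative N → (∃ r : ℕ, r.Prime ∧ ∀ x ∈ N, x ^ r = 1) → N = ⊥) : Concl p α H := by
  have hi := ProjectiveSpecialLinearGroup.toPGL_injective (n := Fin 3) (R := F)
  let e := H.equivMapOfInjective _ hi
  refine (h ?_ (fun c => hH ((Subgroup.map_eq_bot_iff_of_injective _ hi).1 c))
    fun N h1 h2 ⟨r, hr, h3⟩ => ?_).congr e
  · rintro _ ⟨x, -, rfl⟩
    obtain ⟨s, rfl⟩ := QuotientGroup.mk_surjective x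
    exact ⟨_, mem_sl.2 s.2, rfl⟩
  · have := hN (N.comap e.toMonoidHom) (h1.comap _) ⟨⟨fun a b => Subtype.ext (e.injective (by
      rw [Subgroup.coe_mul, Subgroup.coe_mul, map_mul, map_mul]
      exact congrArg Subtype.val (h2.1.1 ⟨_, a.2⟩ ⟨_, b.2⟩)))⟩⟩
      ⟨r, hr, fun x hx => e.injective (by rw [map_pow, map_one]; exact h3 _ hx)⟩
    rw [← Subgroup.map_comap_eq_self_of_surjective (f := e.toMonoidHom) e.surjective N, this,
      Subgroup.map_bot]

end Cfsg.Agent.MiB
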